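import Cfsg.Agent.Lib.G2.Gen

/-!
The quotient of the centralizer by the central involution.
-/

set_option autoImplicit false

namespace Cfsg.Lib.G2

open Subgroup Tw Cfsg.Lib.FT Cfsg.Lib.GW

variable {n : ℕ} {G Y : Type*} [Group G] [Finite G] [Group Y] [Finite Y]

/-- rotation of the first quaternion group -/
def ρ1 : Tw n := ⟨1, 1, false, false⟩

/-- reflection of the first quaternion group -/
def σ1 : Tw n := ⟨2 ^ n, -2 ^ n, true, true⟩

/-- an involution outside the central product -/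
def s0 : Tw n := ⟨1, 0, true, false⟩

theorem i1_Q : (i1 : Tw n) ∈ Q1 := by simp [mem_Q1, i1]

theorem z_Q : (tz : Tw n) ∈ Q1 := by simp [mem_Q1, tz]

theorem σ1_Q : (σ1 : Tw n) ∈ Q1 := by simp [mem_Q1, σ1, two_mul]

theorem Q1_sq {s : Tw n} (hs : s ∈ Q1) (hd : s.d = true) : s * s = tz := by
  obtain ⟨x, y, _ | _, d⟩ := s <;> subst hd <;> simp [mem_Q1, tz] at hs ⊢
  exact ⟨by linear_combination hs, by linear_combination -hs - k_four⟩

theorem R_of_σ {s : Tw n} (h : s * σ1 = σ1 * s ∨ s * σ1 = σ1 * s * tz) : s ∈ Rs := by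
  rcases s with ⟨x, y, _ | _, _ | _⟩ <;> simp [σ1, tz, mem_R] at h ⊢ <;> rcases h with h | h
  exacts [⟨0, by linear_combination h.1⟩, ⟨2 ^ n, by linear_combination h.1 - k_four⟩,
    ⟨2 ^ n, by linear_combination h.1⟩, ⟨0, by linear_combination h.1⟩, ⟨2 ^ n, by linear_combination h.1⟩, ⟨0, by linear_combination h.1 + k_four⟩,
    ⟨0, by linear_combination h.1⟩, ⟨2 ^ n, by linear_combination h.1⟩]

theorem R_sq (h : (ρ1 * ρ1 : Tw n) = 1 ∨ (ρ1 * ρ1 : Tw n) = 1 * tz) {s : Tw n} (hs : s ∈ Rs) :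
    s * s = 1 ∨ s * s = 1 * tz := by
  have h4 : (4 : Zn n) = 0 := by
    simp [ρ1, tz, one_def] at h
    exact h.elim (fun h => by linear_combination 2 * h) fun h => by linear_combination 2 * h + k_four
  obtain ⟨r, hr⟩ := hs
  have k : ∀ a : Zn n, 2 * a = 0 ∨ 2 * a = 2 * 2 ^ n := fun a => k_half (by linear_combination a * h4)
  rcases s with ⟨x, y, _ | _, _ | _⟩ <;> simp [tz, one_def] at hr ⊢
  · exact (k x).imp (fun e => ⟨by linear_combination e, by linear_combination 2 * hr - e + r * h4⟩)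
      fun e => ⟨by linear_combination e, by linear_combination 2 * hr - e + r * h4 - k_four⟩
  · exact (k r).imp (fun e => ⟨by linear_combination e + hr, by linear_combination e + hr⟩)
      fun e => ⟨by linear_combination e + hr, by linear_combination e + hr⟩
  · exact (k (r - y)).imp (fun e => ⟨by linear_combination e + hr, by linear_combination -e - hr⟩)
      fun e => ⟨by linear_combination e + hr, by linear_combination -e - hr - k_four⟩

theorem Loc.mvQ {f : Tw n →* G} (h : Loc f) {g : G} {s : Tw n} (e : Mv f g i1 s) : s ∈ Q1 := by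
  refine (Y_Q (h.sq e i1_sq)).elim id fun hs => by_contra fun h1 => ?_
  cases hd : s.d
  · obtain (rfl | rfl) | rfl | rfl := Y_A (h.sq e i1_sq) hd
    exacts [h1 i1_Q, h1 (mul_mem i1_Q z_Q), h.not_swap (.inl e.symm),
      h.swap'.not_swap (g := g) (.inr (by simpa [Mv] using e))]
  · obtain ⟨g', e', -⟩ := h.swap'.fuse1 (s := τ s) hs hd
    exact h.not_swap (.inl (e.comp (t' := i2) (by simpa [Mv] using e')).symm)

/-- the quotient by the central involution -/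
structure Bar (f : Tw n →* G) (π : G →* Y) : Prop extends Loc f where
  oc : oddCore G = ⊥
  oY : oddCore Y = ⊥
  sur : Function.Surjective π
  ker : ∀ g, π g = 1 ↔ g = 1 ∨ g = f tz

/-- the normal closure of the first factor -/
def NC (f : Tw n →* G) (π : G →* Y) : Subgroup Y := normalClosure {π (f i1)}

instance (f : Tw n →* G) (π : G →* Y) : (NC f π).Normal := normalClosure_normal

namespace Bar

variable {f : Tw n →* G} {π : G →* Y} (h : Bar f π)
include h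

theorem swap : Bar (f.comp τ) π := ⟨h.swap', h.oc, h.oY, h.sur, by simpa using h.ker⟩

theorem eqG {a b : G} : π a = π b ↔ a = b ∨ a = b * f tz := by
  rw [eq_comm, ← inv_mul_eq_one, ← map_inv, ← map_mul, h.ker, inv_mul_eq_one, inv_mul_eq_iff_eq_mul, eq_comm (a := b)]


theorem eq {s t : Tw n} : π (f s) = π (f t) ↔ s = t ∨ s = t * tz := by
  rw [h.eqG, ← map_mul, h.inj.eq_iff, h.inj.eq_iff]

theorem πz : π (f tz) = 1 := (h.ker _).2 (.inr rfl)

theorem mem {K : Subgroup G} (hz : f tz ∈ K) {g : G} : π g ∈ K.map π ↔ g ∈ K :=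
  ⟨fun ⟨_, hk, e⟩ => (h.eqG.1 e.symm).elim (· ▸ hk) (· ▸ mul_mem hk hz), mem_map_of_mem _⟩

theorem memT {K : Subgroup (Tw n)} (hz : tz ∈ K) {s : Tw n} : π (f s) ∈ K.map (π.comp f) ↔ s ∈ K := by
  rw [← map_map, h.mem (mem_map_of_mem _ hz), mem_map_iff_mem h.inj]

theorem sylY : IsSylowIn 2 (π.comp f).range ⊤ := by
  have := h.syl.map π
  rwa [map_top_of_surjective _ h.sur, ← MonoidHom.range_comp] at this

theorem resY {s : Tw n} : π (f s) ∈ pResidual 2 Y ↔ s ∈ Rs := by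
  rw [← map_pResidual_of_surjective π h.sur, h.mem (h.mem_res.2 (Q1_le z_Q)), h.mem_res]

theorem dec (y : Y) : ∃ k ∈ pResidual 2 Y, ∃ c, k * π (f c) = y := by
  obtain ⟨S, hS⟩ := h.sylY.exists_sylow_top
  obtain ⟨k, hk, _, ⟨c, rfl⟩, e⟩ := (mem_sup_of_normal_left).1 (hS ▸ pResidual_sup_sylow S ▸ mem_top y :
    y ∈ pResidual 2 Y ⊔ (π.comp f).range)
  exact ⟨k, hk, c, e⟩

theorem fix (c : Tw n) : π (f c) * π (f i1) * (π (f c))⁻¹ = π (f i1) := by
  simpa using h.eq.2 (conj_i1 c)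

omit [Finite G] [Finite Y] h in
theorem rot : ∀ s ∈ Q1, s.d = false → π (f s) ∈ zpowers (π (f ρ1)) := by
  rintro ⟨x, y, e, d⟩ hs rfl
  obtain ⟨rfl, e⟩ : e = false ∧ x - y = 0 := hs
  obtain rfl := sub_eq_zero.1 e
  obtain ⟨k, hk⟩ := mem_zp 1 1 x
  exact ⟨k, by simpa [ρ1] using congrArg (π.comp f) hk⟩

theorem dh : DD.Dh (Q1.map (π.comp f)) (π (f ρ1)) (π (f i1)) (π (f σ1)) := by
  have k := rot (f := f) (π := π)
  refine ⟨⟨⟨ρ1, by simp [mem_Q1, ρ1], rfl⟩, ?_, ?_⟩, orderOf_eq_prime (by rw [sq, ← map_mul, ← map_mul, i1_sq, h.πz])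
    fun e => ?_, k _ i1_Q rfl, ⟨_, σ1_Q, rfl⟩, fun e => ?_⟩
  · rintro _ ⟨s, hs, rfl⟩ h1
    simpa [h.πz] using congrArg (π.comp f) (Q1_sq hs (by simpa using mt (k s hs) h1))
  · rintro _ ⟨s, hs, rfl⟩ _ ⟨t, ht, rfl⟩ h1 h2
    simpa using k _ (mul_mem hs ht) (by simp [eq_true_of_ne_false (mt (k s hs) h1), eq_true_of_ne_false (mt (k t ht) h2)])
  · have := h.eq.1 (e.trans (map_one (π.comp f)).symm)
    exact z_ne (n := n) (by rw [← i1_sq]; rcases this with e | e <;> simp [e, z_mul_z])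
  · obtain ⟨k, hk⟩ := (mem_powers_iff_mem_zpowers).2 e
    have := h.eq.1 ((map_pow (π.comp f) _ _).trans hk)
    simp [ρ1, pow_mk, σ1, tz] at this

theorem t1 (g : Y) (hg : g * π (f i1) * g⁻¹ ∈ (π.comp f).range) : g * π (f i1) * g⁻¹ ∈ Q1.map (π.comp f) := by
  obtain ⟨g, rfl⟩ := h.sur g
  obtain ⟨s, hs⟩ := hg
  obtain e | e := h.eqG.1 (show π (g * f i1 * g⁻¹) = π (f s) by simpa using hs.symm)
  · exact ⟨s, h.mvQ e, hs⟩
  · exact ⟨s, by simpa using mul_mem (h.mvQ (e.trans (map_mul ..).symm)) (inv_mem z_Q), hs⟩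

theorem f1 (u : Y) (hu : u ∈ Q1.map (π.comp f)) (o : orderOf u = 2) :
    ∃ g ∈ pResidual 2 Y ⊓ C1[π (f i2)], g * π (f i1) * g⁻¹ = u := by
  by_cases hr : u ∈ zpowers (π (f ρ1))
  · exact ⟨1, one_mem _, by simpa using (h.dh.eq_z hr (Wal.sq2 o) (Wal.ne1 o)).symm⟩
  obtain ⟨s, hs, rfl⟩ := hu
  obtain ⟨g, e1, e2⟩ := h.fuse1 hs (eq_true_of_ne_false (mt (rot s hs) hr))
  obtain ⟨k, hk, c, e⟩ := h.dec (π g⁻¹)
  have a : ∀ {s t}, Mv f g t s → π (f c) * π (f s) * (π (f c))⁻¹ = π (f s) → k * π (f s) * k⁻¹ = π (f t) := fun e1 e2 => by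
    rw [← e2, ← e1.symm, map_mul, map_mul, map_inv π g⁻¹, ← e]; group
  exact ⟨k, ⟨hk, DD.c1_of_conj (a e2 (by simpa using h.swap.fix (τ c)))⟩, a e1 (h.fix c)⟩

theorem key : NC f π ≤ C1[π (f i2)] ∧ ∀ s, π (f s) ∈ NC f π → s ∈ Q1 := by
  have hS := h.sylY.inf_of_le_normalizer (N := pResidual 2 Y) le_top (by simp [normalizer_eq_top])
  have e : (π.comp f).range ⊓ pResidual 2 Y = Rs.map (π.comp f) := le_antisymm (by
    rintro _ ⟨⟨s, rfl⟩, hs⟩; exact ⟨s, h.resY.1 hs, rfl⟩) (by rintro _ ⟨s, hs, rfl⟩; exact ⟨⟨s, rfl⟩, h.resY.2 hs⟩)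
  have e2 : Q1.map (π.comp (f.comp τ)) = Q2.map (π.comp f) := le_antisymm (by
    rintro _ ⟨s, hs, rfl⟩; exact ⟨τ s, show τ (τ s) ∈ Q1 by rwa [τ_τ], rfl⟩) (by
      rintro _ ⟨s, hs, rfl⟩; exact ⟨τ s, hs, by simp⟩)
  have r : (π.comp (f.comp τ)).range = (π.comp f).range := by
    rw [← MonoidHom.comp_assoc, MonoidHom.range_comp, MonoidHom.range_eq_top.2 (Function.RightInverse.surjective τ_τ),
      ← MonoidHom.range_eq_map]
  obtain ⟨M, h1, h2⟩ := dd_in (D₁ := Q1.map (π.comp f)) (D₂ := Q2.map (π.comp f)) hS ⟨e ▸ map_mono Q1_le,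
    e ▸ map_mono Q2_le, by rintro _ ⟨s, hs, rfl⟩ _ ⟨t, ht, rfl⟩; rw [← map_mul, Q_comm hs ht, map_mul],
    eq_bot_iff.2 (by
      rintro _ ⟨h1, s, hs, rfl⟩
      rcases Q_inf ((h.memT z_Q).1 h1) hs with rfl | rfl
      exacts [map_one _, h.πz]), by
    rw [e, ← Subgroup.map_sup]; congr 1
    exact le_antisymm (sup_le Q1_le Q2_le) fun s hs => by
      obtain ⟨a, ha, b, hb, rfl⟩ := R_dec hs
      exact mul_mem (mem_sup_left ha) (mem_sup_right hb)⟩ h.dh (e2 ▸ h.swap.dh)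
    (fun g _ hg => h.t1 g hg.1) (fun g _ hg => e2 ▸ h.swap.t1 g (r ▸ hg.1)) (fun u hu o => h.f1 u hu o)
    (fun u hu o => by simpa using h.swap.f1 u (e2 ▸ hu) o)
    (by rw [oddCore, pPrimeCore_subgroup_eq_of_isSubnormal (Normal.isSubnormal inferInstance), show pPrimeCore 2 Y = ⊥
      from h.oY, bot_subgroupOf]) (by
      refine or_iff_not_imp_left.2 fun hr => isMulCommutative_of_forall fun a ha b hb => ?_
      have : ∀ a ∈ Rs.map (π.comp f), a⁻¹ = a := by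
        rintro _ ⟨s, hs, rfl⟩
        exact inv_eq_of_mul_eq_one_right (by simpa using h.eq.2 (R_sq (h.eq.1 (by simpa using hr)) hs))
      rw [e] at ha hb
      rw [← this _ (mul_mem ha hb), mul_inv_rev, this a ha, this b hb])
  have k : ∀ K : Subgroup Y, (∀ g ∈ pResidual 2 Y, g * π (f i1) * g⁻¹ ∈ K) → NC f π ≤ K := fun K hK =>
    (closure_le _).2 fun x hx => by
      obtain ⟨_, rfl, e⟩ := Group.mem_conjugatesOfSet_iff.1 hx
      obtain ⟨g, rfl⟩ := isConj_iff.1 e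
      obtain ⟨k, hk, c, rfl⟩ := h.dec g
      have := hK k hk
      rwa [← h.fix c, show ∀ a b c : Y, a * (b * c * b⁻¹) * a⁻¹ = a * b * c * (a * b)⁻¹ from fun _ _ _ => by group] at this
  exact ⟨k _ fun g hg => (h1 g hg).2, fun s hs => (h.memT z_Q).1 (h2 ⟨⟨⟨s, rfl⟩, normalClosure_le_normal
    (by simpa using h.resY.2 (Y_R i1_sq)) hs⟩, k _ (fun g hg => (h1 g hg).1) hs⟩)⟩

theorem i1_M : π (f i1) ∈ NC f π := subset_normalClosure rfl

theorem comm : NC (f.comp τ) π ≤ C[NC f π] :=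
  normalClosure_le_normal (Set.singleton_subset_iff.2 (mem_centralizer_iff.2 fun _ hg => mem_c1.1 (h.key.1 hg)))

theorem cj {u : Y} (hu : u ∈ Q1.map (π.comp f)) (o : orderOf u = 2) {N : Subgroup Y} [hN : N.Normal] :
    u ∈ N ↔ π (f i1) ∈ N := by
  obtain ⟨g, -, rfl⟩ := h.f1 u hu o
  exact ⟨fun e => by simpa [mul_assoc] using hN.conj_mem _ e g⁻¹, (hN.conj_mem _ · g)⟩

theorem memM {s : Tw n} : π (f s) ∈ NC f π ↔ s ∈ Q1 :=
  ⟨h.key.2 s, fun hs => h.dh.le_of_invs (fun _ hu o => (h.cj hu o).2 h.i1_M) ⟨s, hs, rfl⟩⟩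

theorem min (N : Subgroup Y) [hN : N.Normal] : N ⊓ NC f π = ⊥ ∨ NC f π ≤ N := by
  refine or_iff_not_imp_left.2 fun h1 => normalClosure_le_normal (Set.singleton_subset_iff.2 ?_)
  by_contra h2
  refine h1 (bot_of_odd h.oY inferInstance (odd_of_forall fun x hx o => h2 ?_))
  obtain ⟨g, -, e⟩ := h.sylY.exists_conj_le (isPGroup_zpowers_two (Wal.sq2 o)) le_top
  obtain ⟨s, hs : π (f s) = g * x * g⁻¹⟩ := e ⟨x, mem_zpowers x, rfl⟩
  have := Normal.conj_mem inferInstance x hx g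
  exact (h.cj ⟨s, h.key.2 s (hs ▸ this.2), hs⟩ (DD.ord2 o g)).1 this.1

theorem Q2_c {s : Tw n} (hs : s ∈ Q2) : π (f s) ∈ C[NC f π] := h.comm (by simpa using h.swap.memM.2 hs)

theorem R_of_c {s : Tw n} (hs : π (f s) ∈ C[NC f π]) : s ∈ Rs :=
  R_of_σ (h.eq.1 (by simpa using (mem_centralizer_iff.1 hs _ (h.memM.2 σ1_Q)).symm))

end Bar

end Cfsg.Lib.G2
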