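import Cfsg.Agent.Lib.G2.Bar

/-!
The normal subgroups `SL₂(q)` of the centralizer modulo its core.
-/

set_option autoImplicit false

namespace Cfsg.Lib.G2

open Subgroup Tw Cfsg.Lib.FT Cfsg.Lib.GW
open scoped MatrixGroups commutatorElement

variable {n : ℕ} {G Y : Type*} [Group G] [Finite G] [Group Y] [Finite Y]

theorem s0_R : (s0 : Tw n) ∉ Rs := fun ⟨r, hr⟩ => k_odd r (by simpa [s0] using hr.symm)

theorem i1_σ1 : ⁅(i1 : Tw n), (σ1 : Tw n)⁆ = tz := by
  simp [commutatorElement_def, i1, σ1, tz]; ring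

theorem cent_R {s : Tw n} (a : ∀ t ∈ Q1, t * s = s * t) (b : ∀ t ∈ Q2, t * s = s * t) : s = 1 ∨ s = tz := by
  have h1 := a _ i1_Q
  have h2 := b (τ i1) (by simpa [Q2] using i1_Q)
  have h3 := a _ σ1_Q
  have h4 := b (τ σ1) (by simpa [Q2] using σ1_Q)
  have k := k_two (n := n)
  rcases s with ⟨x, y, _ | _, _ | _⟩ <;> simp [i1, i2, σ1, tz, one_def] at h1 h2 h3 h4 ⊢
  · obtain rfl : x = y := by linear_combination -h4.1
    simpa using k_half (x := x) (by linear_combination -h3.1)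
  exacts [(k (by linear_combination h2.1)).elim, (k (by linear_combination h1.1)).elim,
    (k (by linear_combination h1.1)).elim]

theorem norm6 (h : Nat.card G ∣ 6) {c : G} (c3 : c ^ 3 = 1) (y : G) : y * c * y⁻¹ ∈ zpowers c := by
  by_cases c1 : c = 1
  · simp [c1]
  haveI : Fact (Nat.Prime 3) := ⟨Nat.prime_three⟩
  rw [← (zpowers c).index_mul_card, Nat.card_zpowers, orderOf_eq_prime c3 c1] at h
  obtain e | e := (Nat.dvd_prime Nat.prime_two).1 (Nat.dvd_of_mul_dvd_mul_right (by norm_num) (show _ ∣ 2 * 3 from h))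
  · exact index_eq_one.1 e ▸ mem_top _
  · exact (normal_of_index_eq_two e).conj_mem _ (mem_zpowers c) y

theorem mem_of_cube {S K : Subgroup G} (hS : IsPGroup 2 S) {x : G} (hx : x ∈ S) (h : x ^ 3 ∈ K) : x ∈ K := by
  obtain ⟨k, e⟩ := hS.exists_orderOf_eq_pow ⟨x, hx⟩
  exact Cfsg.Lib.mem_of_pow_mem_of_coprime (by rw [← orderOf_mk x hx, e]; exact .pow_right _ (by norm_num)) h

namespace Bar

variable {f : Tw n →* G} {π : G →* Y} (h : Bar f π)
include h

theorem ker_eq : π.ker = zpowers (f tz) := by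
  ext g; rw [MonoidHom.mem_ker, h.ker, mem_zpowers_two (by rw [← map_mul, z_mul_z, map_one])]

theorem case1 (hn : ¬ NC f π ≤ C[NC f π]) : ∃ (F : Type) (_ : Field F) (_ : Fintype F), Odd (Fintype.card F) ∧
    ∃ ψ : SL(2, F) →* G, Function.Injective ψ ∧ ψ.range = (NC f π).comap π := by
  have hM : NC f π ⊓ C[NC f π] = ⊥ := inf_comm (NC f π) _ ▸ (h.min C[NC f π]).resolve_right hn
  have hp : ⁅NC f π, NC f π⁆ = NC f π := le_antisymm (commutator_le_left ..) ((h.min _).resolve_left fun e =>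
    hn (commutator_eq_bot_iff_le_centralizer.1 (by rwa [inf_eq_left.2 (commutator_le_left ..)] at e)))
  let q := QuotientGroup.mk' C[NC f π]
  have hq : ∀ y, q y = 1 ↔ y ∈ C[NC f π] := QuotientGroup.eq_one_iff
  have hne : (NC f π).map q ≠ ⊥ := fun e => hn fun m hm => (hq m).1 (e.le ⟨m, hm, rfl⟩)
  have hS := h.sylY.map q
  rw [map_top_of_surjective _ (QuotientGroup.mk'_surjective _)] at hS
  have k : ∀ s : Tw n, s.e = false → q (π (f s)) ∈ zpowers (q (π (f ⟨1, 0, false, false⟩))) := by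
    rintro ⟨x, y, e, d⟩ rfl
    obtain ⟨k, hk⟩ := mem_zp 1 0 (x + y - if d then 2 * 2 ^ n else 0)
    have := (hq _).2 (h.Q2_c (s := (⟨1, 0, false, false⟩ ^ k)⁻¹ * ⟨x, y, false, d⟩) (by
      rw [show (_ : Tw n) ^ k = _ from hk]; cases d <;> simp [mem_Q2]; ring))
    exact ⟨k, inv_mul_eq_one.1 (by simpa using this)⟩
  have hd : Dih2 (Y ⧸ C[NC f π]) := dih2_of_gen hS (c := q (π (f ⟨1, 0, false, false⟩))) ⟨⟨_, ⟨_, rfl⟩, rfl⟩, by
    rintro _ ⟨_, ⟨⟨x, y, e, d⟩, rfl⟩, rfl⟩ h1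
    obtain rfl : e = true := eq_true_of_ne_false (mt (k ⟨x, y, e, d⟩) h1)
    rw [← map_mul, ← map_mul]
    exact (hq _).2 (h.Q2_c (by cases d <;> simp [mem_Q2])), by
    rintro _ ⟨_, ⟨s, rfl⟩, rfl⟩ _ ⟨_, ⟨t, rfl⟩, rfl⟩ h1 h2
    simpa using k (s * t) (by simp [eq_true_of_ne_false (mt (k s) h1), eq_true_of_ne_false (mt (k t) h2)])⟩
  obtain ⟨L, hL, hs, -, hk⟩ := hd.exists_almS (oc_quot h.oY hM) fun _ =>
    hne (eq_bot_of_perfect_of_isSolvable (by rw [← map_commutator, hp]) inferInstance)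
  haveI := hL.normal
  haveI : ((NC f π).map q).Normal := Normal.map inferInstance _ (QuotientGroup.mk'_surjective _)
  have h1 : (NC f π).map q ≤ L := map_le_iff_le_comap.2 ((h.min (L.comap q)).resolve_left fun e => hne (eq_bot_iff.2
    (hL.cent ▸ commutator_eq_bot_iff_le_centralizer.1 (eq_bot_iff.2 ((commutator_le_inf ..).trans (by
      rintro _ ⟨⟨m, hm, rfl⟩, h2⟩
      rw [mem_bot.1 (e.le ⟨h2, hm⟩)]; exact map_one _))))))
  obtain rfl : L = ((NC f π).comap π).map (q.comp π) := by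
    rw [← map_map, map_comap_eq_self_of_surjective h.sur]
    exact le_antisymm (subgroupOf_eq_top.1 ((hs.eq_bot_or_eq_top_of_normal _ inferInstance).resolve_left fun e =>
      hne (by rwa [subgroupOf_eq_bot, disjoint_iff, inf_eq_left.2 h1] at e))) h1
  obtain ⟨F, _, _, hF, h3, ⟨e⟩⟩ | hk := hk
  · have z : f tz ∈ ⁅(NC f π).comap π, (NC f π).comap π⁆ := by
      rw [← i1_σ1, map_commutatorElement]; exact commutator_mem_commutator h.i1_M (h.memM.2 σ1_Q)
    have k6 : ((q.comp π).subgroupMap ((NC f π).comap π)).ker = (zpowers (f tz)).subgroupOf _ := by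
      ext x
      rw [mem_subgroupOf, ← h.ker_eq]
      exact Subtype.ext_iff.trans ((hq _).trans ⟨fun e => hM.le ⟨x.2, e⟩, fun e => by
        rw [show π x = 1 from e]; exact one_mem _⟩)
    obtain ⟨e⟩ := (hd.subgroup _).nonempty_sl2 (by
      rw [← map_subtype_inj, map_subtype_commutator, ← MonoidHom.range_eq_map, range_subtype,
        ← comap_map_eq_self (f := π) (H := ⁅_, _⁆) (h.ker_eq ▸ zpowers_le.2 z), map_commutator,
        map_comap_eq_self_of_surjective h.sur, hp]) (MonoidHom.subgroupMap_surjective _ _) (fun x hx =>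
      mem_center_iff.2 fun g => Subtype.ext (mem_c1.1 (zpowers_le.2 (mem_c1.2 (h.cen g).symm) (k6.le hx))).symm) (by
        rw [k6, Nat.card_congr (subgroupOfEquivOfLe (zpowers_le.2 (commutator_le_left _ _ z))).toEquiv, Nat.card_zpowers,
          orderOf_injective f h.inj, orderOf_eq_prime ((sq _).trans z_mul_z) z_ne]) hF h3 e
    exact ⟨F, _, _, hF, (Subgroup.subtype _).comp e.symm.toMonoidHom, Subtype.val_injective.comp e.symm.injective, by
      rw [MonoidHom.range_comp, MonoidHom.range_eq_top.2 e.symm.surjective, ← MonoidHom.range_eq_map, range_subtype]⟩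
  · obtain ⟨m, hm, e⟩ := (a7_top hL hk).ge (mem_top (q (π (f s0))))
    have hC : C[NC f π] ≤ pResidual 2 Y := fun c hc => by
      obtain ⟨k, hk, _, ⟨⟨s, rfl⟩, hs⟩, rfl⟩ := DD.exists_rs_mul (h.sylY.inf_of_le_normalizer le_top (by
        simp [normalizer_eq_top])) hc
      exact mul_mem (DD.rs_le_of (fun g _ o => mem_pResidual_of_coprime (Nat.coprime_two_right.2 o)) hk)
        (h.resY.2 (h.R_of_c hs))
    have := mul_mem (normalClosure_le_normal (by simpa using h.resY.2 (Y_R i1_sq)) hm) (hC (QuotientGroup.eq.1 e))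
    exact (s0_R (h.resY.1 (by simpa using this))).elim

theorem le_comm : (NC f π).comap π ≤ commutator G := fun g hg => by
  haveI : ((commutator G).map π).Normal := Normal.map inferInstance _ h.sur
  have m : ∀ a b, f ⁅a, b⁆ ∈ commutator G := fun a b => by
    rw [map_commutatorElement]; exact commutator_mem_commutator (mem_top _) (mem_top _)
  refine (h.mem (i1_σ1 ▸ m _ _)).1 (normalClosure_le_normal (Set.singleton_subset_iff.2 (mem_map_of_mem _ ?_)) hg)
  simpa [commutatorElement_def, i1] using m ⟨2 ^ n, 0, false, false⟩ ⟨0, 0, true, true⟩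

theorem s0_c : π (f s0) ∉ C[NC f π] := fun e => s0_R (h.R_of_c e)

theorem E_le : C[NC f π] ⊓ C[NC (f.comp τ) π] ≤ (π.comp f).range := by
  have : (π.comp f).range ⊓ (C[NC f π] ⊓ C[NC (f.comp τ) π]) ≤ C[(C[NC f π] ⊓ C[NC (f.comp τ) π] :)] := by
    rintro _ ⟨⟨s, rfl⟩, hs⟩
    obtain ⟨a, ha, b, hb, rfl⟩ := R_dec (h.R_of_c hs.1)
    rw [map_mul]
    exact mul_mem (mem_centralizer_iff.2 fun g hg => (mem_centralizer_iff.1 hg.1 _ (h.memM.2 ha)).symm)
      (mem_centralizer_iff.2 fun g hg => (mem_centralizer_iff.1 hg.2 _ (by simpa using h.swap.memM.2 hb)).symm)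
  exact le_syl h.oY h.sylY inferInstance (fun a ha b hb => mem_centralizer_iff.1 (this hb) a ha.2) fun t ht _ => this ht

variable (hc : NC f π ≤ C[NC f π])
include hc

theorem four_eq : four (π (f i1)) (π (f σ1)) = NC f π := le_antisymm (four_le_iff.2 ⟨h.i1_M, h.memM.2 σ1_Q⟩) fun y hy => by
  obtain ⟨s, rfl⟩ := le_syl h.oY h.sylY inferInstance (fun a ha b hb => mem_centralizer_iff.1 (hc hb.2) a ha.2)
    (fun t ht _ => hc ht.2) hy
  exact h.dh.four.mem_four.2 (h.dh.cent ⟨s, h.memM.1 hy, rfl⟩ (mem_centralizer_iff.1 (hc (h.memM.2 σ1_Q)) _ hy))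

theorem nm (g : Y) : g ∈ N[four (π (f i1)) (π (f σ1))] := by rw [h.four_eq hc, normalizer_eq_top]; trivial

theorem four_p {g : Y} (hg : g ∉ C1[π (f i1)]) : Four (π (f i1)) (g * π (f i1) * g⁻¹) ∧
    four (π (f i1)) (g * π (f i1) * g⁻¹) = NC f π := by
  obtain e | e | e := h.dh.four.conj_mem (h.nm hc g) (left_mem_four _ _) h.dh.z_ne
  · exact (hg (DD.c1_of_conj e)).elim
  · exact e ▸ ⟨h.dh.four, h.four_eq hc⟩
  · exact e ▸ ⟨h.dh.four.alt, h.dh.four.four_alt.trans (h.four_eq hc)⟩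

theorem fx {g : Y} (hg : π (f s0) ∈ C1[g * π (f i1) * g⁻¹]) : g ∈ C1[π (f i1)] := by_contra fun e => h.s0_c (by
  rw [← (h.four_p hc e).2, centralizer_four]; exact ⟨DD.c1_of_conj (h.fix _), hg⟩)

theorem mv {g : Y} (hg : g⁻¹ * π (f s0) * g * (π (f s0))⁻¹ ∈ C1[π (f i1)]) : g ∈ C1[π (f i1)] := by
  rw [mul_mem_cancel_right (inv_mem (DD.c1_of_conj (h.fix _)))] at hg
  exact h.fx hc (by simpa [mul_assoc] using DD.conj_mem_c1 hg g)

theorem idx {x y : Y} (hx : x ∈ C1[π (f i1)]) (hy : y ∈ C1[π (f i1)]) (hx' : x ∉ C[NC f π]) (hy' : y ∉ C[NC f π]) :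
    x * y ∈ C[NC f π] := by
  rw [← h.four_eq hc, centralizer_four] at hx' hy' ⊢
  have a := (h.dh.four.conj_v (h.nm hc x) hx).resolve_left fun e => hx' ⟨hx, DD.c1_of_conj e⟩
  have b := (h.dh.four.conj_v (h.nm hc y) hy).resolve_left fun e => hy' ⟨hy, DD.c1_of_conj e⟩
  exact ⟨mul_mem hx hy, DD.c1_of_conj (by
    rw [mul_inv_rev, ← mul_assoc, mul_assoc x, mul_assoc x, b, ← conj_mul, a, DD.conj_eq_of_c1 hx, h.dh.four.tw])⟩

theorem exists_mv : ∃ g ∈ C[NC (f.comp τ) π], g ∉ C1[π (f i1)] := by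
  by_contra! H
  obtain ⟨g, e1, e2⟩ := h.fuse1 σ1_Q rfl
  have g1 : π g ∉ C1[π (f i1)] := fun e => h.dh.four.ne ((MulAut.conj (π g)).injective
    (((by simpa using congrArg π e1 : _ = π (f i1))).trans (DD.conj_eq_of_c1 e).symm))
  refine g1 (h.mv hc ?_)
  by_cases h2 : NC (f.comp τ) π ≤ C[NC (f.comp τ) π]
  · have a : π g ∈ C1[π (f i2)] := DD.c1_of_conj (by simpa using congrArg π e2)
    have b : π (f s0) ∈ C1[π (f i2)] := DD.c1_of_conj (by simpa using h.swap.fix (τ s0))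
    have c : π (f s0) ∉ C[NC (f.comp τ) π] := fun e => s0_R (τ_R.1 (h.swap.R_of_c (s := τ s0) (by simpa using e)))
    have d := mt (H _) g1
    rw [mul_assoc]
    exact H _ (mul_mem (h.swap.idx h2 (inv_mem a) b (by rwa [inv_mem_iff]) c)
      (h.swap.idx h2 a (inv_mem b) d (by rwa [inv_mem_iff])))
  · obtain ⟨F, _, _, hF, ψ, hi, e⟩ := h.swap.case1 h2
    haveI : ψ.range.Normal := e ▸ inferInstance
    have : commutator G ≤ C1[π (f i1)].comap π := (out_ab (h9_two_ne_zero_of_odd_card hF) hi).trans (sup_le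
      (fun x hx => mem_c1.2 (mem_centralizer_iff.1 (h.comm (e.le hx)) _ h.i1_M).symm) fun x hx => H _
        (mem_centralizer_iff.2 fun y hy => by
          obtain ⟨y, rfl⟩ := h.sur y
          simpa using congrArg π (mem_centralizer_iff.1 hx y (e.ge hy))))
    simpa [commutatorElement_def] using this (commutator_mem_commutator (mem_top g⁻¹) (mem_top (f s0)))

theorem case2 : ∃ ψ : SL(2, ZMod 3) →* G, Function.Injective ψ ∧ ψ.range.Normal ∧ ψ.range ≤ commutator G ∧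
    ∀ s, f s ∈ ψ.range ↔ s ∈ Q1 := by
  obtain ⟨g, g2, g1⟩ := h.exists_mv hc
  obtain ⟨g, rfl⟩ := h.sur g
  have ττ : f s0 * f s0 = 1 := by rw [← map_mul, ← map_one f]; simp [s0, one_def]
  have τi := inv_eq_of_mul_eq_one_right ττ
  have zz : f tz * f tz = 1 := by rw [← map_mul, z_mul_z, map_one]
  obtain ⟨t, ht⟩ : ∃ t, t = g⁻¹ * f s0 * g := ⟨_, rfl⟩
  have tt : t * t = 1 := by simpa [ht] using DD.conj_conj_mul ττ g⁻¹
  have a1 : π (t * f s0) ∉ C1[π (f i1)] := fun e => g1 (h.mv hc (by simpa [ht, ← map_inv, τi] using e))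
  have a2 : π (t * f s0) ∈ C[NC (f.comp τ) π] := by
    have := mul_mem (inv_mem g2) (Normal.conj_mem inferInstance _ g2 (π (f s0)))
    simpa [ht, ← map_inv, τi, mul_assoc] using this
  have a3 : π (t * f s0) ^ 3 ∈ C[NC f π] := h.four_eq hc ▸ (h.dh.four.sq_or_cube (h.nm hc _)).resolve_left fun e => by
    have k := DD.c1_of_conj (h.fix s0)
    have e : _ ∈ C1[π (f i1)] := ((centralizer_four ..).le e).1
    rw [sq, map_mul, ← mul_assoc, mul_mem_cancel_right k] at e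
    refine a1 (map_mul π .. ▸ mul_mem (h.fx hc ?_) k)
    simpa [← mul_assoc, ← map_mul π t t, tt] using DD.conj_mem_c1 e (π t)
  obtain ⟨k, hk⟩ : ∃ k, ((t * f s0) ^ 3) ^ 2 ^ k = 1 := by
    have := h.E_le ⟨a3, pow_mem a2 3⟩
    rw [← map_pow, MonoidHom.range_comp, h.mem (f.mem_range.2 ⟨_, rfl⟩)] at this
    exact (h.syl.isPGroup ⟨_, this⟩).imp fun _ e => congrArg Subtype.val e
  obtain ⟨j, hj⟩ : ∃ j, 2 ^ k * 2 ^ k = 3 * j + 1 := ⟨(2 * 2) ^ k / 3, by
    have : (2 * 2) ^ k % 3 = 1 := by simp [Nat.pow_mod]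
    rw [← mul_pow]; omega⟩
  obtain ⟨c, hcc⟩ : ∃ c, c = (t * f s0) ^ (2 ^ k * 2 ^ k) := ⟨_, rfl⟩
  have c3 : c ^ 3 = 1 := by rw [hcc, ← pow_mul, mul_comm, pow_mul, pow_mul, hk, one_pow]
  have c3' : π c ^ 3 = 1 := by rw [← map_pow, c3, map_one]
  have c1 : π c ∉ C1[π (f i1)] := by
    rwa [hcc, hj, map_pow, pow_succ, pow_mul, mul_mem_cancel_left (pow_mem (mem_c1.2
      (mem_centralizer_iff.1 a3 _ h.i1_M).symm) j)]
  have c2 : π c ∈ C[NC (f.comp τ) π] := by rw [hcc, map_pow]; exact pow_mem a2 _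
  have cG : c ∈ commutator G := by
    rw [hcc]; refine pow_mem ?_ _
    simpa [commutatorElement_def, ht, τi, commutator_def] using
      commutator_mem_commutator (mem_top g⁻¹) (mem_top (f s0))
  have τc : f s0 * c = c⁻¹ * f s0 := by
    rw [← mul_inv_eq_iff_eq_mul, hcc, ← conj_pow, ← inv_pow, mul_inv_rev, τi, inv_eq_of_mul_eq_one_right tt, mul_assoc,
      mul_assoc, ττ, mul_one]
  obtain ⟨F, eM⟩ := h.four_p hc c1
  have r : π ((f i1 * c) ^ 3) = 1 := by
    have e : π c * (π c * π (f i1) * (π c)⁻¹) * (π c)⁻¹ = π (f i1) * (π c * π (f i1) * (π c)⁻¹) := by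
      obtain e | e | e := F.conj_mem (g := π c) (by rw [eM, normalizer_eq_top]; trivial) (right_mem_four _ _) F.v_ne
      · exact (c1 (inv_mem_iff.1 (inv_eq_of_mul_eq_one_left ((pow_succ _ 2).symm.trans c3') ▸
          DD.c1_of_conj (Eq.trans (by simp [sq, mul_assoc]) e)))).elim
      · exact (F.ne ((MulAut.conj (π c)).injective e)).elim
      · exact e
    rw [map_pow, map_mul, show ∀ a c : Y, (a * c) ^ 3 = a * (c * a * c⁻¹) * (c * (c * a * c⁻¹) * c⁻¹) * c ^ 3 from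
      fun a c => by simp [pow_succ, mul_assoc], e, F.ww, c3', mul_one]
  have iτ : f i1 * f s0 = f s0 * f tz * f i1 := by
    simp only [← map_mul]; congr 1; simp [i1, s0, tz]; constructor <;> linear_combination k_four
  obtain ⟨i, πi, ii, iτ, r⟩ : ∃ i, π i = π (f i1) ∧ i * i = f tz ∧ i * f s0 = f s0 * f tz * i ∧ (i * c) ^ 3 = 1 := by
    have ii : f i1 * f i1 = f tz := by rw [← map_mul, i1_sq]
    obtain r | r := (h.ker _).1 r
    · exact ⟨_, rfl, ii, iτ, r⟩
    · refine ⟨f i1 * f tz, by simp [h.πz], ?_, ?_, ?_⟩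
      · rw [mul_assoc, ← mul_assoc (f tz), ← h.cen, mul_assoc (f i1), zz, mul_one, ii]
      · rw [mul_assoc, ← h.cen, ← mul_assoc, iτ, mul_assoc _ (f i1)]
      · rw [mul_assoc, ← h.cen, ← mul_assoc, Commute.mul_pow (h.cen _), r, ← pow_succ', show 3 + 1 = 2 * 2 from rfl,
          pow_mul, sq (f tz), zz, one_pow]
  obtain ⟨ψ, hi, e⟩ := exists_sl3 c3 ττ τc ii h.cen zz (fun e => z_ne (h.inj (e.trans (map_one f).symm))) iτ r
  have cL : c ∈ ψ.range := e ▸ subset_closure (by simp)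
  have iL : i ∈ ψ.range := e ▸ subset_closure (by simp)
  have zL : f tz ∈ ψ.range := ii ▸ mul_mem iL iL
  have ML : NC f π ≤ ψ.range.map π := eM ▸ four_le_iff.2 ⟨⟨i, iL, πi⟩, ⟨_, mul_mem (mul_mem cL iL) (inv_mem cL), by
    simp [πi]⟩⟩
  refine ⟨ψ, hi, ⟨fun x hx y => (e.le.trans ((closure_le (ψ.range.comap (MulAut.conj y).toMonoidHom)).2 ?_)) hx⟩,
    e ▸ (closure_le _).2 ?_, fun s => ⟨fun hs => ?_, fun hs => (h.mem zL).1 (ML (h.memM.2 hs))⟩⟩
  · rintro x (hx | rfl)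
    · obtain rfl := hx.symm
      obtain ⟨k, hk⟩ := norm6 ((sm_card_mulAut_dvd_factorial (NC f π)).trans (by rw [← eM, F.card]; rfl))
        (c := MulAut.conjNormal (π c)) (by rw [← map_pow, c3', map_one]) (MulAut.conjNormal (π y))
      have b1 : π (y * c * y⁻¹) * (π c ^ k)⁻¹ ∈ C[NC f π] := mem_centralizer_iff.2 fun m hm => by
        have : MulAut.conjNormal (H := NC f π) (π (y * c * y⁻¹) * (π c ^ k)⁻¹) = 1 := by simp [← hk]
        exact (mul_inv_eq_iff_eq_mul.1 (congrArg (fun φ : MulAut (NC f π) => (φ ⟨m, hm⟩ : Y)) this)).symm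
      have b2 : π (y * c * y⁻¹) ∈ C[NC (f.comp τ) π] := by simpa using Normal.conj_mem inferInstance _ c2 (π y)
      obtain ⟨s, hs⟩ := h.E_le (mem_inf.2 ⟨b1, mul_mem b2 (inv_mem (zpow_mem c2 k))⟩)
      obtain ⟨a, ha, b, hb, rfl⟩ := R_dec (h.R_of_c (show π (f s) ∈ _ from hs ▸ b1))
      have b3 : π (y * c * y⁻¹) = π (f b) * (π (f a) * π c ^ k) := by
        rw [← mul_assoc, ← map_mul, ← map_mul, ← Q_comm ha hb, ← mul_inv_eq_iff_eq_mul]; exact hs.symm
      have u : π (f a) * π c ^ k ∈ ψ.range.map π := mul_mem (ML (h.memM.2 ha)) (zpow_mem (mem_map_of_mem _ cL) k)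
      have bM : π (f b) ∈ NC (f.comp τ) π := by simpa using h.swap.memM.2 hb
      have cm : Commute (π (f b)) (π (f a) * π c ^ k) := .mul_right (mem_centralizer_iff.1 (h.comm bM) _
        (h.memM.2 ha)).symm (mem_centralizer_iff.1 (zpow_mem c2 k) _ bM)
      refine (h.mem zL).1 (b3 ▸ mul_mem (mem_of_cube h.sylY.isPGroup ⟨b, rfl⟩ ?_) u)
      rw [← mul_mem_cancel_right (pow_mem u 3), ← cm.mul_pow, ← b3, ← map_pow, conj_pow, c3]
      simp
    · exact (h.mem zL).1 (ML (by simpa [πi] using Normal.conj_mem inferInstance _ h.i1_M (π y)))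
  · rintro _ (rfl | rfl)
    exacts [cG, h.le_comm (πi ▸ h.i1_M :)]
  · obtain ⟨k, hk⟩ := (e.le.trans ((closure_le ((zpowers (QuotientGroup.mk' ((NC f π).comap π) c)).comap
      (QuotientGroup.mk' _))).2 (by
        rintro _ (rfl | rfl)
        · exact mem_zpowers _
        · exact ⟨0, (zpow_zero _).trans ((QuotientGroup.eq_one_iff _).2 (mem_comap.2 (πi ▸ h.i1_M))).symm⟩))) hs
    refine h.memM.1 (mem_of_cube (K := (NC f π).comap π) h.syl.isPGroup ⟨s, rfl⟩ ((QuotientGroup.eq_one_iff _).1 ?_))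
    rw [← QuotientGroup.mk'_apply, map_pow, ← hk, ← zpow_natCast, ← zpow_mul, mul_comm, zpow_mul, zpow_natCast, ← map_pow,
      c3, map_one, one_zpow]

omit hc in
theorem p1 : ∃ (F : Type) (_ : Field F) (_ : Fintype F), Odd (Fintype.card F) ∧ ∃ ψ : SL(2, F) →* G,
    Function.Injective ψ ∧ ψ.range.Normal ∧ ψ.range ≤ commutator G ∧ ∀ s, f s ∈ ψ.range ↔ s ∈ Q1 := by
  by_cases hc : NC f π ≤ C[NC f π]
  · exact ⟨ZMod 3, _, inferInstance, by simp; decide, h.case2 hc⟩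
  · obtain ⟨F, _, _, hF, ψ, hi, e⟩ := h.case1 hc
    exact ⟨F, _, _, hF, ψ, hi, e ▸ inferInstance, e ▸ h.le_comm, fun s => e ▸ h.memM⟩

end Bar

end Cfsg.Lib.G2
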