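import Cfsg.Agent.Lib.DD.Klein
import Cfsg.Agent.Lib.Walter.Main

/-!
Products of two dihedral groups as Sylow `2`-subgroups: the normal closures of the factors.
-/

set_option autoImplicit false

namespace Cfsg.Lib.G2

open Subgroup Cfsg.Lib.FT Cfsg.Lib.GW Cfsg.Lib.DD Cfsg.Lib.Wal

variable {G : Type*} [Group G] [Finite G] {S D₁ D₂ : Subgroup G} {r₁ z₁ a₁ r₂ z₂ a₂ : G}

theorem le_c_comp (h : Fus S D₁ D₂ r₁ z₁ a₁ r₂ z₂ a₂) (c : CF2 S) {K : Subgroup G} (hK : IsComponent K)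
    (e : K ⊓ D₁ = ⊥) : D₁ ≤ C[K] := by
  haveI := c.simple hK
  obtain ⟨h1, h4, k, ⟨hk, hk'⟩, tr⟩ := (walter K (fun hc => hK.ne_bot ((c.inf_c hK).symm ▸
    (inf_eq_left.2 (le_centralizer K)).symm)) (c.ab.subgroup K)).tor_sub (c.sylK hK)
  intro x hx
  refine h.h1.le_of_invs (fun x hx hx2 => ?_) hx
  obtain ⟨v, hv, hw⟩ := c.dec hK (h.le1 hx)
  have e1 : k * x * k⁻¹ * x⁻¹ = k * v * k⁻¹ * v⁻¹ := by
    rw [← mul_inv_cancel_left v x, ← conj_mul, mul_inv_eq_iff_eq_mul.2 (mem_centralizer_iff.1 hw k hk)]; group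
  have e2 : k * x * k⁻¹ * x⁻¹ ∈ K ⊓ S := e1 ▸ mul_mem ((hk' v).1 hv) (inv_mem hv)
  have e3 := h.t1 _ ((h.cj1 hx hx2).conj k) (by simpa using mul_mem e2.2 (h.le1 hx))
  have e4 : k ∈ C1[v] := c1_of_conj (mul_inv_eq_one.1 (e1 ▸ mem_bot.1 (e.le ⟨e2.1, D₁.mul_mem e3 (inv_mem hx)⟩)))
  by_cases v1 : v = 1
  · simpa [v1] using hw
  obtain ⟨w, hw, f⟩ := exists_four h1 h4 hv v1
  obtain ⟨k', hk', e⟩ := tr v hv w hw v1 f.v_ne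
  rw [DD.conj_eq_of_c1 (zpowers_le.2 e4 hk')] at e
  exact (f.w_ne (e ▸ f.tt)).elim

theorem cj_le_ab (h : Fus S D₁ D₂ r₁ z₁ a₁ r₂ z₂ a₂) (hO : oddCore G = ⊥) (hc : IsMulCommutative S) {y : G}
    (hy : Cj z₁ y) : y ∈ C1[z₂] := by
  have c : CF2 S := ⟨fun P hP => by
    obtain ⟨k, -, e⟩ := h.syl.exists_conj_le hP le_top
    exact isMulCommutative_of_forall fun a ha b hb => (MulAut.conj k).injective (by
      rw [map_mul, map_mul]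
      exact congrArg Subtype.val (hc.1.1 ⟨_, e ⟨a, ha, rfl⟩⟩ ⟨_, e ⟨b, hb, rfl⟩⟩)), oc_top.trans hO, h.syl⟩
  by_cases ex : ∃ K, IsComponent K ∧ ∃ y ∈ K, Cj z₁ y
  · obtain ⟨K, hK, y', h1, h2⟩ := ex
    obtain ⟨g, rfl⟩ := h2.symm.trans hy
    have hK' := hK.map_conj g
    have hy' : g * y' * g⁻¹ ∈ K.map (MulAut.conj g).toMonoidHom := ⟨y', h1, rfl⟩
    generalize K.map (MulAut.conj g).toMonoidHom = K, g * y' * g⁻¹ = y at hK' hy' hy ⊢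
    refine mem_c1.2 (mem_centralizer_iff.1 (le_c_comp h.swap c hK' ?_ h.h2.zD) _ hy')
    refine eq_bot_iff.2 fun u hu => by_contra fun u1 => ?_
    haveI := c.simple hK'
    obtain ⟨h1, -, k, -, tr⟩ := (walter K (fun hc => hK'.ne_bot ((c.inf_c hK').symm ▸
      (inf_eq_left.2 (le_centralizer K)).symm)) (c.ab.subgroup K)).tor_sub (c.sylK hK')
    have o := hy.ord h.h1.hz
    obtain ⟨m, -, e⟩ := (c.sylK hK').exists_conj_le (isPGroup_zpowers_two (sq2 o)) (zpowers_le.2 hy')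
    obtain ⟨k', -, e'⟩ := tr _ (e ⟨y, mem_zpowers y, rfl⟩) u ⟨hu.1, h.le2 hu.2⟩ (ne1 (ord2 o m)) u1
    exact u1 (h.disj (h.t1 _ ((hy.conj m).trans ⟨k', e'⟩) (h.le2 hu.2)) hu.2)
  · have : D₁ ≤ fittingSubgroup G := c.inf_eq ▸ le_inf h.le1 (c.c_layer fun K hK => le_c_comp h c hK
      (eq_bot_iff.2 fun u hu => by_contra fun u1 => ?_))
    · obtain ⟨g, rfl⟩ := hy
      exact h.Sc2 (c.fit_le (Normal.conj_mem inferInstance _ (this h.h1.zD) g))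
    · obtain ⟨t, ht, ht2⟩ := exists_invol (h.p1.to_le inf_le_right) (ne_bot_iff_exists_ne_one.2 ⟨⟨u, hu⟩, by simpa using u1⟩)
      exact ex ⟨K, hK, t, ht.1, h.cj1 ht.2 ht2⟩

theorem dh_sub {X D : Subgroup G} {r z a : G} (h : Dh D r z a) (hD : D ≤ X) :
    Dh (D.subgroupOf X) ⟨r, hD h.mem⟩ ⟨z, hD h.zD⟩ ⟨a, hD h.ha⟩ := by
  have m : ∀ x : X, x ∈ zpowers (⟨r, hD h.mem⟩ : X) ↔ (x : G) ∈ zpowers r := fun x => by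
    simp [mem_zpowers_iff, Subtype.ext_iff]
  exact ⟨⟨h.mem, fun x hx hx' => Subtype.ext (h.sq x hx (mt (m x).2 hx')), fun x hx y hy hx' hy' =>
    (m _).2 (h.mul x hx y hy (mt (m x).2 hx') (mt (m y).2 hy'))⟩, (orderOf_coe _).symm.trans h.hz, (m _).2 h.zr, h.ha,
    mt (m _).1 h.ar⟩

theorem dd_in {X : Subgroup G} (hS : IsSylowIn 2 S X) (hp : IsInternalDirectProduct D₁ D₂ S) (h1 : Dh D₁ r₁ z₁ a₁)
    (h2 : Dh D₂ r₂ z₂ a₂) (t1 : ∀ g ∈ X, g * z₁ * g⁻¹ ∈ S → g * z₁ * g⁻¹ ∈ D₁)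
    (t2 : ∀ g ∈ X, g * z₂ * g⁻¹ ∈ S → g * z₂ * g⁻¹ ∈ D₂)
    (f1 : ∀ u ∈ D₁, orderOf u = 2 → ∃ g ∈ X ⊓ C1[z₂], g * z₁ * g⁻¹ = u)
    (f2 : ∀ u ∈ D₂, orderOf u = 2 → ∃ g ∈ X ⊓ C1[z₁], g * z₂ * g⁻¹ = u) (hO : oddCore X = ⊥)
    (hr : r₁ * r₁ ≠ 1 ∨ IsMulCommutative S) : ∃ M : Subgroup G, (∀ g ∈ X, g * z₁ * g⁻¹ ∈ M ⊓ C1[z₂]) ∧ S ⊓ M ≤ D₁ := by
  have l1 := hp.1.trans hS.le
  have l2 := hp.2.1.trans hS.le
  have h : Fus (S.subgroupOf X) (D₁.subgroupOf X) (D₂.subgroupOf X) _ _ _ _ _ _ := ⟨⟨sylow_sub hS, ⟨fun _ h => hp.1 h,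
    fun _ h => hp.2.1 h, fun a ha b hb => Subtype.ext (hp.2.2.1 a ha b hb),
    eq_bot_iff.2 fun x hx => Subtype.ext (hp.2.2.2.1.le hx), by rw [← hp.2.2.2.2, subgroupOf_sup l1 l2]⟩,
    dh_sub h1 l1, dh_sub h2 l2⟩, by rintro _ ⟨g, rfl⟩ h; exact t1 g g.2 h, by rintro _ ⟨g, rfl⟩ h; exact t2 g g.2 h,
    fun u hu o => by
      obtain ⟨g, hg, e⟩ := f1 u hu ((orderOf_coe u).trans o)
      exact ⟨⟨g, hg.1⟩, mem_c1.2 (Subtype.ext (mem_c1.1 hg.2)), Subtype.ext e⟩, fun u hu o => by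
      obtain ⟨g, hg, e⟩ := f2 u hu ((orderOf_coe u).trans o)
      exact ⟨⟨g, hg.1⟩, mem_c1.2 (Subtype.ext (mem_c1.1 hg.2)), Subtype.ext e⟩⟩
  have c : ∀ y, Cj ⟨z₁, l1 h1.zD⟩ y → y ∈ C1[(⟨z₂, l2 h2.zD⟩ : X)] := fun y hy => hr.elim
    (fun hr => h.cj_le (fun e => hr (congrArg Subtype.val e)) hO hy) fun hc => cj_le_ab h hO
      (isMulCommutative_of_forall fun a ha b hb => Subtype.ext (congrArg Subtype.val (hc.1.1 ⟨a, ha⟩ ⟨b, hb⟩) :)) hy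
  refine ⟨(rs C1[(⟨z₂, l2 h2.zD⟩ : X)]).map X.subtype, fun g hg => ⟨⟨_, h.mem_rs' (.refl _) (.mk' ⟨g, hg⟩ _)
    (c _ (.mk' _ _)), rfl⟩, mem_c1.2 (congrArg Subtype.val (mem_c1.1 (c _ (.mk' ⟨g, hg⟩ _))))⟩, ?_⟩
  rintro _ ⟨hs, s, hs', rfl⟩
  exact h.mem_of_rs hs hs'

end Cfsg.Lib.G2
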