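import Cfsg.Agent.Lib.G2.Tw
import Cfsg.Agent.Lib.DD.Basic

/-!
Fusion of involutions for Sylow `2`-subgroups of type `G₂(q)`.
-/

set_option autoImplicit false

namespace Cfsg.Lib.G2

open Subgroup

variable {n : ℕ}

namespace Tw

theorem isConj_of {s t : Tw n} (g : Tw n) (h : g * s = t * g) : IsConj s t :=
  isConj_iff.2 ⟨g, mul_inv_eq_iff_eq_mul.2 h⟩

theorem invA {s : Tw n} (h : s * s = 1) (he : s.e = false) (hd : s.d = false) : s = 1 ∨ s = tz ∨ IsConj t1 s := by
  obtain ⟨x, y, e, d⟩ := s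
  subst he hd
  simp only [one_def, mk_mul, Tw.mk.injEq] at h
  obtain rfl | rfl := k_half (x := x) (by simpa [two_mul] using h.1) <;>
    obtain rfl | rfl := k_half (x := y) (by simpa [two_mul] using h.2.1)
  exacts [Or.inl rfl, Or.inr (Or.inr (isConj_of ⟨0, 0, false, true⟩ (by simp [t1]))), Or.inr (Or.inr (.refl _)),
    Or.inr (Or.inl rfl)]

theorem tri {s : Tw n} (h : s * s = 1) : (s.e = false ∧ s.d = false) ∨ (∃ w, w * s = s * w ∧ w * w = tz) ∨
    (s.e = true ∧ s.d = false ∧ (∃ r, s.x + s.y = 2 * r + 1) ∧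
      ∀ g, g * s = s * g → (g.e = false ∧ g.d = false) ∨ IsConj s g) := by
  obtain ⟨x, y, _ | _, _ | _⟩ := s
  · exact Or.inl ⟨rfl, rfl⟩
  · exact Or.inr (Or.inl ⟨⟨2 ^ n, 2 ^ n, false, false⟩, by simp [add_comm], by simp [tz, two_mul]⟩)
  · obtain ⟨r, hr | hr⟩ := k_par (x + y)
    · refine Or.inr (Or.inl ⟨⟨x - r, 2 * 2 ^ n - x + r, false, true⟩, ?_, by simp [tz]⟩)
      simp only [mk_mul, Tw.mk.injEq]; simp
      exact ⟨by linear_combination hr, by linear_combination -hr + k_four⟩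
    refine Or.inr (Or.inr ⟨rfl, rfl, ⟨r, hr⟩, ?_⟩)
    rintro ⟨x', y', _ | _, _ | _⟩ h' <;> simp at h'
    · exact Or.inl ⟨rfl, rfl⟩
    · exact (k_odd (x - x' - r) (by linear_combination -h'.1 + hr)).elim
    · have : ∀ p q, x' - x = 2 * p → y' - y = 2 * q → IsConj (⟨x, y, true, false⟩ : Tw n) ⟨x', y', true, false⟩ :=
        fun p q h1 h2 => isConj_of ⟨p, q, false, false⟩
          (by simp; exact ⟨by linear_combination -h1, by linear_combination -h2⟩)
      obtain h1 | h1 := k_half (x := x' - x) (by linear_combination h'.1) <;>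
        obtain h2 | h2 := k_half (x := y' - y) (by linear_combination h'.2)
      exacts [Or.inr (this 0 0 (by simpa) (by simpa)), Or.inr (this 0 _ (by simpa) h2), Or.inr (this _ 0 h1 (by simpa)),
        Or.inr (this _ _ h1 h2)]
    · exact (k_odd (x' - r) (by linear_combination h'.1 + hr)).elim
  · refine Or.inr (Or.inl ⟨⟨2 ^ n, -2 ^ n, false, false⟩, by simp [add_comm], ?_⟩)
    simp [tz, two_mul]; linear_combination -k_four

theorem conj_v {s : Tw n} (h : s * s = 1) (he : s.e = false) (hd : s.d = true) : IsConj ⟨0, 0, false, true⟩ s := by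
  obtain ⟨x, y, e, d⟩ := s
  subst he hd
  simp [one_def] at h
  exact isConj_of ⟨x, 0, false, false⟩ (by simp; linear_combination -h.1)

theorem pow_four {s t : Tw n} (h : s * t = t * s) (he : t.e = true) (hd : t.d = false) : s * s * (s * s) = 1 := by
  obtain ⟨x, y, e, d⟩ := t
  subst he hd
  obtain ⟨x', y', _ | _, _ | _⟩ := s <;> simp [one_def] at h ⊢ <;> constructor
  exacts [by linear_combination 2 * h.1, by linear_combination 2 * h.2, by linear_combination h.1 + h.2,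
    by linear_combination h.1 + h.2, by linear_combination h.1 - h.2, by linear_combination h.2 - h.1]

end Tw

open Tw

variable {G : Type*} [Group G] [Finite G]

/-- a Sylow `2`-subgroup of type `G₂` -/
structure Syl (f : Tw n →* G) : Prop where
  inj : Function.Injective f
  syl : IsSylowIn 2 f.range ⊤

theorem exists_syl (S : Sylow 2 G) (e : S ≃* Tw n) : ∃ f : Tw n →* G, Syl f ∧ f.range = S := by
  have : ((S : Subgroup G).subtype.comp e.symm.toMonoidHom).range = S := by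
    rw [MonoidHom.range_comp, MonoidHom.range_eq_top.2 e.symm.surjective, ← MonoidHom.range_eq_map, range_subtype]
  exact ⟨_, ⟨Subtype.val_injective.comp e.symm.injective, by rw [this]; exact .of_sylow_top S⟩, this⟩

theorem ext_conj {S K : Subgroup G} (hS : IsSylowIn 2 S K) {U : Subgroup G} (hU : IsPGroup 2 U) {g : G}
    (h : ∀ s ∈ U, g * s * g⁻¹ ∈ K) : ∃ k ∈ K, ∀ s ∈ U, k * g * s * (k * g)⁻¹ ∈ S := by
  obtain ⟨k, hk, e⟩ := hS.exists_conj_le (hU.map (MulAut.conj g).toMonoidHom) (by rintro _ ⟨s, hs, rfl⟩; exact h s hs)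
  exact ⟨k, hk, fun s hs => by simpa [mul_assoc] using e ⟨_, ⟨s, hs, rfl⟩, rfl⟩⟩

namespace Syl

variable {f : Tw n →* G} (h : Syl f)
include h

theorem ext {K : Subgroup G} (hK : f.range ≤ K) (U : Subgroup (Tw n)) {g : G} (hg : ∀ s ∈ U, g * f s * g⁻¹ ∈ K) :
    ∃ k ∈ K, ∃ φ : U →* Tw n, ∀ s : U, k * g * f s * (k * g)⁻¹ = f (φ s) := by
  obtain ⟨k, hk, e⟩ := ext_conj (h.syl.mono hK le_top) ((pg.to_subgroup U).map f) (g := g) (by
    rintro _ ⟨s, hs, rfl⟩; exact hg s hs)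
  choose φ hφ using fun s : U => e _ ⟨s, s.2, rfl⟩
  exact ⟨k, hk, MonoidHom.mk' φ fun a b => h.inj (by simp [hφ, mul_assoc]), fun s => (hφ s).symm⟩

theorem ext_z {t : Tw n} (ht : IsConj (f t) (f tz)) : ∃ g : G, g * f t * g⁻¹ = f tz ∧
    ∃ φ : centralizer {t} →* Tw n, ∀ s : centralizer {t}, g * f s * g⁻¹ = f (φ s) := by
  obtain ⟨g, hg⟩ := isConj_iff.1 ht
  obtain ⟨k, hk, φ, e⟩ := h.ext (K := centralizer {f tz}) (by
    rintro _ ⟨s, rfl⟩; exact mem_centralizer_singleton_iff.2 (by rw [← map_mul, z_comm, map_mul]))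
    (centralizer {t}) (g := g) fun s hs => mem_centralizer_singleton_iff.2 (by
      rw [← hg, conj_mul, conj_mul, ← map_mul, mem_centralizer_singleton_iff.1 hs, map_mul])
  exact ⟨k * g, by rw [mul_inv_rev, ← mul_assoc, mul_assoc k, mul_assoc k, hg, mem_centralizer_singleton_iff.1 hk,
    mul_inv_cancel_right], φ, e⟩

/-- a conjugation moving `t` to `z` and `z` to `t1` -/
theorem swap {t w : Tw n} (ht : IsConj (f t) (f tz)) (h1 : t ≠ tz) (hw : w * t = t * w) (ww : w * w = tz) :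
    ∃ g : G, g * f t * g⁻¹ = f tz ∧ g * f tz * g⁻¹ = f t1 := by
  obtain ⟨g, hg, φ, e⟩ := h.ext_z ht
  have e' : g * f tz * g⁻¹ = f (φ ⟨w, mem_centralizer_singleton_iff.2 hw⟩ * φ ⟨w, mem_centralizer_singleton_iff.2 hw⟩) := by
    rw [← map_mul, ← e, ← ww]; rfl
  obtain k | k | k := invA (s := φ ⟨w, mem_centralizer_singleton_iff.2 hw⟩ * φ ⟨w, mem_centralizer_singleton_iff.2 hw⟩)
    (h.inj (by rw [map_mul, ← e', conj_mul, ← map_mul, z_mul_z]; simp)) (by simp) (by simp)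
  · exact (z_ne (h.inj (by rw [k, map_one, conj_eq_one_iff] at e'; rw [e', map_one]))).elim
  · exact (h1 (h.inj (by rw [k] at e'; simpa using hg.trans e'.symm))).elim
  · obtain ⟨c, hc⟩ := isConj_iff.1 k.symm
    refine ⟨f c * g, ?_, by rw [← hc, map_mul, map_mul, ← e', map_inv]; group⟩
    rw [mul_inv_rev, ← mul_assoc, mul_assoc (f c), mul_assoc (f c), hg, ← map_mul, z_comm, map_mul,
      mul_inv_cancel_right]

theorem exists_mem {y : G} (hy : orderOf y = 2) : ∃ s, s * s = 1 ∧ s ≠ 1 ∧ IsConj y (f s) := by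
  obtain ⟨k, -, e⟩ := h.syl.exists_conj_le (U := zpowers y) (.of_card (n := 1) (by simpa)) le_top
  obtain ⟨s, hs⟩ := e ⟨y, mem_zpowers y, rfl⟩
  have : orderOf s = 2 := by rw [← orderOf_injective f h.inj, hs, orderOf_injective _ (MulAut.conj k).injective, hy]
  exact ⟨s, by rw [← sq, ← this, pow_orderOf_eq_one], by rintro rfl; simp at this, isConj_iff.2 ⟨k, hs.symm⟩⟩

theorem idx (c : Tw n → Bool) (hc : ∀ s t, c (s * t) = xor (c s) (c t)) {a : Tw n} (ha : c a = true) :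
    ∃ M : Subgroup G, M ≤ f.range ∧ M.relIndex f.range = 2 ∧ ∀ y ∈ M, ∃ s, c s = false ∧ f s = y := by
  have c1 : c 1 = false := by simpa using hc 1 1
  let M : Subgroup (Tw n) := ⟨⟨⟨{s | c s = false}, fun {a b} h h' => by simp_all⟩, c1⟩, fun {a} h => by
    simpa [c1, show c a = false from h] using (hc a a⁻¹).symm⟩
  have m : ∀ s, f s ∈ M.map f ↔ c s = false := fun s => mem_map_iff_mem h.inj
  refine ⟨M.map f, map_le_range _ _, DD.relIndex_two ⟨a, rfl⟩ (by simp [m, ha]) ?_, fun y hy => hy⟩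
  rintro _ ⟨s, rfl⟩ _ ⟨t, rfl⟩ h h'
  rw [← map_mul, m, hc]; simp_all

variable [IsSimpleGroup G]

theorem not_cen : f tz ∉ center G := fun hz => by
  obtain h' | h' := IsSimpleGroup.eq_bot_or_eq_top_of_normal (center G) inferInstance
  · exact z_ne (h.inj (by rw [h'] at hz; rw [hz, map_one]))
  · obtain h | h := central (s := (t1 : Tw n)) fun g => h.inj (by
      rw [map_mul, map_mul]; exact mem_center_iff.1 (h' ▸ mem_top _) _) <;> simp [t1, tz, one_def, k_two, k_two.symm] at h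

theorem res : pResidual 2 G = ⊤ := (IsSimpleGroup.eq_bot_or_eq_top_of_normal _ inferInstance).resolve_left fun h' => by
  have : IsPGroup 2 G := isPGroup_quotient_pResidual.of_equiv
    ((QuotientGroup.quotientMulEquivOfEq h').trans QuotientGroup.quotientBot)
  exact h.not_cen ((IsSimpleGroup.eq_bot_or_eq_top_of_normal (center G) inferInstance).resolve_left
    (nontrivial_iff_ne_bot _ |>.1 this.center_nontrivial) ▸ mem_top _)

theorem z_t1 : IsConj (f tz) (f t1) := by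
  by_contra hn
  have key : ∀ t, t ≠ tz → IsConj (f t) (f tz) → t.e = true ∧ t.d = false ∧
      ∀ g, g * t = t * g → (g.e = false ∧ g.d = false) ∨ IsConj t g := fun t h1 ht => by
    obtain ⟨g, hg⟩ := isConj_iff.1 ht.symm
    have tt : t * t = 1 := h.inj (by rw [map_mul, ← hg, conj_mul, ← map_mul, z_mul_z]; simp)
    obtain ⟨k1, k2⟩ | ⟨w, k1, k2⟩ | k := tri tt
    · obtain rfl | rfl | k := invA tt k1 k2
      exacts [(z_ne (h.inj (by simpa [eq_comm] using ht))).elim, (h1 rfl).elim, (hn (ht.symm.trans (f.map_isConj k.symm))).elim]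
    · obtain ⟨g, -, e⟩ := h.swap ht h1 k1 k2
      exact (hn (isConj_iff.2 ⟨g, e⟩)).elim
    · exact ⟨k.1, k.2.1, k.2.2.2⟩
  obtain ⟨S, hS⟩ := h.syl.exists_sylow_top
  refine h.not_cen (zstar_center (pg_pPrimeCore_eq_bot_of_simple ((orderOf_eq_prime (x := f tz) (by
    rw [sq, ← map_mul, z_mul_z, map_one]) fun e => z_ne (h.inj (e.trans (map_one f).symm))).symm.dvd.trans
    (orderOf_dvd_natCard _))) (by rw [sq, ← map_mul, z_mul_z, map_one])
    (isIsolated_of_sylow S (hS ▸ ⟨_, rfl⟩) fun g hg => by_contra fun hne => ?_))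
  obtain ⟨t, ht⟩ := hS ▸ hg
  have c : IsConj (f t) (f tz) := (isConj_iff.2 ⟨g, ht.symm⟩).symm
  have ne : t ≠ tz := by rintro rfl; exact hne ht.symm
  obtain ⟨k1, k2, -⟩ := key t ne c
  obtain ⟨g, hg, φ, e⟩ := h.ext_z c
  have m : ∀ x y, 2 * x = 0 → 2 * y = 0 → ⟨x, y, false, false⟩ ∈ centralizer {t} := fun x y hx hy =>
    mem_centralizer_singleton_iff.2 (by
      obtain ⟨a, b, e, d⟩ := t
      subst k1 k2
      simp; exact ⟨by linear_combination hx, by linear_combination hy⟩)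
  let a : centralizer {t} := ⟨t1, m _ _ (by linear_combination k_four) (by simp)⟩
  let b : centralizer {t} := ⟨_, m 0 (2 * 2 ^ n) (by simp) (by linear_combination k_four)⟩
  have ab : ((a * b : centralizer {t}) : Tw n) = tz := by simp [a, b, t1, tz]
  have c' : IsConj (f tz) (f (φ (a * b))) := isConj_iff.2 ⟨g, ab ▸ e _⟩
  obtain ⟨l1, -, l⟩ := key (φ (a * b)) (fun e' => ne (h.inj (by simpa [e', ← hg, ab] using (e (a * b)).symm))) c'.symm
  have l' : ∀ s : centralizer {t}, IsConj t1 (s : Tw n) → (φ s).e = false := fun s hs =>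
    ((l _ (by rw [← map_mul, ← map_mul]; exact congrArg φ (Subtype.ext (by simp [-coe_mul, ab, z_comm, coe_mul _ s,
      coe_mul _ _ s])))).resolve_right fun k => hn (c'.trans ((f.map_isConj k).trans ((isConj_iff.2 ⟨g, e s⟩).symm.trans
        (f.map_isConj hs.symm))))).1
  simp [l' a (.refl _), l' b (isConj_of ⟨0, 0, false, true⟩ (by simp [t1, b]))] at l1

theorem classes : (∀ x y : G, orderOf x = 2 → orderOf y = 2 → IsConj x y) ∨ (n = 0 ∧ ∃ x y : G, orderOf x = 2 ∧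
    orderOf y = 2 ∧ ¬ IsConj x y ∧ ∀ z : G, orderOf z = 2 → IsConj z x ∨ IsConj z y) := by
  obtain ⟨S, hS⟩ := h.syl.exists_sylow_top
  have sq : ∀ {y : G} {g s}, y ^ 2 = 1 → y ≠ 1 → f s = g * y * g⁻¹ → s * s = 1 ∧ s ≠ 1 := fun h1 h2 e =>
    ⟨h.inj (by rw [map_mul, e, conj_mul, ← sq, h1]; simp), fun e' => h2 (by simpa [e'] using e.symm)⟩
  have A : ∀ s, s * s = 1 → s ≠ 1 → s.e = false → s.d = false → IsConj (f s) (f tz) := fun s h1 h2 h3 h4 => by
    obtain rfl | rfl | k := invA h1 h3 h4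
    exacts [(h2 rfl).elim, .refl _, (h.z_t1.trans (f.map_isConj k)).symm]
  have key : ∀ y : G, orderOf y = 2 → IsConj y (f tz) ∨ IsConj y (f ⟨0, 0, false, true⟩) := fun y hy => by
    obtain ⟨M, -, h1, h2⟩ := h.idx (·.e) mul_e (a := ⟨0, 0, true, false⟩) rfl
    have y2 : y ^ 2 = 1 := hy ▸ pow_orderOf_eq_one y
    obtain ⟨g, hg⟩ := thompson_transfer S (hS ▸ h1) y2 (h.res ▸ mem_top _)
    obtain ⟨s, k1, k2⟩ := h2 _ hg
    obtain ⟨s1, s2⟩ := sq y2 (by rintro rfl; simp at hy) k2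
    cases hd : s.d
    · exact Or.inl ((isConj_iff.2 ⟨g, k2.symm⟩).trans (A s s1 s2 k1 hd))
    · exact Or.inr ((isConj_iff.2 ⟨g, k2.symm⟩).trans (f.map_isConj (conj_v s1 k1 hd).symm))
  by_cases hv : IsConj (f ⟨0, 0, false, true⟩) (f tz)
  · exact Or.inl fun x y hx hy => ((key x hx).elim id (·.trans hv)).trans ((key y hy).elim id (·.trans hv)).symm
  have v2 : f ⟨0, 0, false, true⟩ ^ 2 = 1 := by rw [← map_pow, pow_two, ← map_one f]; simp [one_def]
  have v1 : f ⟨0, 0, false, true⟩ ≠ 1 := fun e => by simpa [one_def] using h.inj (e.trans (map_one f).symm)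
  refine Or.inr ⟨?_, _, _, orderOf_eq_prime (by rw [pow_two, ← map_mul, z_mul_z, map_one])
    (fun e => z_ne (h.inj (e.trans (map_one f).symm))), orderOf_eq_prime v2 v1, fun e => hv e.symm, key⟩
  obtain ⟨M, h0, h1, h2⟩ := h.idx (·.d) mul_d (a := ⟨0, 0, false, true⟩) rfl
  obtain ⟨g, hg, hs⟩ := thompson_transfer_extremal S (hS ▸ h0) (hS ▸ h1) v2 (h.res ▸ mem_top _)
  obtain ⟨s, k1, k2⟩ := h2 _ hg
  obtain ⟨s1, s2⟩ := sq v2 v1 k2
  cases he : s.e
  · exact (hv ((isConj_iff.2 ⟨g, k2.symm⟩).trans (A s s1 s2 he k1))).elim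
  obtain ⟨k, -, e⟩ := ext_conj hs ((pg.to_subgroup (zpowers ⟨1, 1, false, false⟩)).map f) (g := g) (by
    rintro _ ⟨r, hr, rfl⟩
    refine mem_centralizer_singleton_iff.2 ?_
    obtain ⟨i, rfl⟩ := hr
    rw [conj_mul, conj_mul, ← map_mul, ← map_mul, (Commute.zpow_left (show _ = _ by simp) i).eq])
  obtain ⟨⟨r, hr⟩, c⟩ := hS ▸ e _ ⟨_, mem_zpowers _, rfl⟩
  have := pow_four (s := r) (h.inj (by rw [map_mul, map_mul, hr, k2]; exact mem_centralizer_singleton_iff.1 c)) he k1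
  have := congrArg f this
  simp only [map_mul, hr, conj_mul, map_one, conj_eq_one_iff] at this
  have := congrArg Tw.x (h.inj (by simpa only [← map_mul] using this.trans (map_one f).symm))
  by_contra hn
  obtain ⟨m, rfl⟩ := Nat.exists_eq_succ_of_ne_zero hn
  simp [one_def] at this
  exact k_two (n := m + 1) (by linear_combination 2 ^ m * this)

end Syl

end Cfsg.Lib.G2
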