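import Cfsg.Agent.Lib.G2.Loc
import Cfsg.Agent.Lib.G2.Syl
import Cfsg.Agent.Lib.FT.GW.Cor

/-!
General tools about normal subgroups `SL₂(q)`.
-/

set_option autoImplicit false

namespace Cfsg.Lib.G2

open Subgroup Cfsg.Lib.FT Cfsg.Lib.GW Cfsg.Lib.Quad Cfsg.Lib.Hay Matrix.SpecialLinearGroup
open scoped MatrixGroups commutatorElement

variable {G : Type*} [Group G] [Finite G]

omit [Finite G] in
theorem bot_of_odd (hO : oddCore G = ⊥) {N : Subgroup G} (hN : N.Normal) (h : Odd (Nat.card N)) : N = ⊥ :=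
  eq_bot_iff.2 (hO ▸ le_pPrimeCore hN (Nat.coprime_two_right.2 h))

theorem le_syl (hO : oddCore G = ⊥) {S N : Subgroup G} (hS : IsSylowIn 2 S ⊤) (hN : N.Normal)
    (hc : ∀ a ∈ S ⊓ N, ∀ b ∈ S ⊓ N, a * b = b * a) (hz : ∀ t ∈ S ⊓ N, t * t = 1 → t ∈ C[N]) : N ≤ S := by
  have hT := hS.inf_of_le_normalizer (N := N) le_top (by simp [normalizer_eq_top])
  obtain ⟨P, hP⟩ := hT.exists_sylow'
  have : DD.rs N = ⊥ := bot_of_odd hO (normalizer_eq_top_iff.1 (eq_top_iff.2 (le_trans (by simp [normalizer_eq_top])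
    (DD.rs_norm N)))) (by
      rw [DD.rs, card_map_of_injective N.subtype_injective, ← Nat.not_even_iff_odd, even_iff_two_dvd]
      exact hasNormalPComplement_iff_not_dvd.1 (compl_of_central P (isMulCommutative_of_forall fun a ha b hb =>
        Subtype.ext (hc a (hP ▸ ha :) b (hP ▸ hb :))) fun t ht tt => mem_center_iff.2 fun d =>
          Subtype.ext (mem_centralizer_iff.1 (hz t (hP ▸ ht :) (congrArg Subtype.val tt)) d d.2)))
  intro g hg
  obtain ⟨k, hk, s, hs, rfl⟩ := DD.exists_rs_mul hT hg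
  rw [this, mem_bot] at hk
  simpa [hk] using hs.1

theorem oc_quot (hO : oddCore G = ⊥) {M : Subgroup G} [M.Normal] (h : M ⊓ C[M] = ⊥) : oddCore (G ⧸ C[M]) = ⊥ := by
  have : (oddCore (G ⧸ C[M])).comap (QuotientGroup.mk' C[M]) ⊓ M = ⊥ := bot_of_odd hO inferInstance
    (odd_of_forall fun x hx o => not_mem_of_odd (Nat.coprime_two_right.1 coprime_card_pPrimeCore)
      (orderOf_eq_prime (x := QuotientGroup.mk' _ x) (by rw [← map_pow, ← o, pow_orderOf_eq_one, map_one])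
        fun e => Wal.ne1 o (h.le ⟨hx.2, (QuotientGroup.eq_one_iff x).1 e⟩)) hx.1)
  refine eq_bot_iff.2 fun y hy => ?_
  obtain ⟨y, rfl⟩ := QuotientGroup.mk'_surjective _ y
  exact (QuotientGroup.eq_one_iff y).2 (mem_centralizer_iff.2 fun m hm => commutatorElement_eq_one_iff_mul_comm.1
    (this.le ⟨Subgroup.mul_mem _ (Normal.conj_mem inferInstance y hy m) (Subgroup.inv_mem _ hy), by
      rw [commutatorElement_def, mul_assoc, mul_assoc, ← mul_assoc y]
      exact mul_mem hm (Normal.conj_mem inferInstance _ (inv_mem hm) y)⟩))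

variable {F : Type*} [Field F]

theorem sq_ind (h2 : (2 : F) ≠ 0) {K : Subgroup SL(2, F)} (h : ∀ A, A * A ∈ K) (A : SL(2, F)) : A ∈ K :=
  sl2_induction (· ∈ K) (fun c => by convert h (upT (c / 2)) using 1; rw [upT_mul]; congr 1; field_simp; ring)
    (fun c => by convert h (loT (c / 2)) using 1; rw [loT_mul]; congr 1; field_simp; ring) (fun _ _ => mul_mem) A

omit [Finite G] in
theorem comm_of_sq (h2 : (2 : F) ≠ 0) (ψ : SL(2, F) →* G) {y z : G} (zz : z * z = 1) (hz : ∀ A, ψ A * z = z * ψ A)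
    (h : ∀ A, y * ψ A * y⁻¹ = ψ A ∨ y * ψ A * y⁻¹ = ψ A * z) : y ∈ C[ψ.range] := by
  refine mem_centralizer_iff.2 ?_
  rintro _ ⟨A, rfl⟩
  refine mem_c1.1 (sq_ind h2 (K := C1[y].comap ψ) (fun A => mem_c1_symm (DD.c1_of_conj ?_)) A)
  rw [map_mul, ← conj_mul]
  rcases h A with e | e <;> rw [e]
  rw [mul_assoc, ← mul_assoc z, ← hz, mul_assoc, zz, mul_one]

theorem out_ab [Finite F] (h2 : (2 : F) ≠ 0) {ψ : SL(2, F) →* G} (hi : Function.Injective ψ) [hn : ψ.range.Normal] :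
    commutator G ≤ ψ.range ⊔ C[ψ.range] := by
  have k : ∀ A, ψ A ∈ C[ψ.range] → A = 1 ∨ A = -1 := fun A hA => h9_sl2_of_comm h2 fun B _ => hi (by
    rw [map_mul, map_mul]; exact (mem_centralizer_iff.1 hA _ ⟨B, rfl⟩).symm)
  have z : ∀ A, ψ A * ψ (-1) = ψ (-1) * ψ A := fun A => by simp [← map_mul]
  obtain ⟨m⟩ := L2.exists_mod_of h2 (L := ψ.range.map (QuotientGroup.mk' C[ψ.range]))
    (hn.map _ (QuotientGroup.mk'_surjective _)) (eq_bot_iff.2 fun y hy => by
      obtain ⟨y, rfl⟩ := QuotientGroup.mk'_surjective _ y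
      refine (QuotientGroup.eq_one_iff y).2 (comm_of_sq h2 ψ (z := ψ (-1)) (by simp [← map_mul]) z fun A => ?_)
      obtain ⟨B, hB⟩ := hn.conj_mem _ ⟨A, rfl⟩ y
      have : ψ (A⁻¹ * B) ∈ C[ψ.range] := (QuotientGroup.eq_one_iff _).1 (by
        have := mem_centralizer_iff.1 hy _ ⟨_, ⟨A, rfl⟩, rfl⟩
        simp only [QuotientGroup.mk'_apply] at this
        rw [map_mul, map_inv, hB, QuotientGroup.mk_mul, QuotientGroup.mk_mul, QuotientGroup.mk_mul, ← this,
          QuotientGroup.mk_inv, QuotientGroup.mk_inv, mul_inv_cancel_right, inv_mul_cancel])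
      exact (k _ this).imp (fun e => by rw [← hB, inv_mul_eq_one.1 e]) fun e => by
        rw [← hB, inv_mul_eq_iff_eq_mul.1 e, map_mul])
    (π := (QuotientGroup.mk' _).comp ψ) (fun A => ⟨fun e => k A ((QuotientGroup.eq_one_iff _).1 e), by
      rintro (rfl | rfl)
      · exact map_one _
      · exact (QuotientGroup.eq_one_iff _).2 (mem_centralizer_iff.2 (by rintro _ ⟨A, rfl⟩; exact z A))⟩)
    (MonoidHom.range_comp ..)
  have := ((map_commutator_eq G (QuotientGroup.mk' C[ψ.range])).le.trans (commutator_mono le_top le_top)).trans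
    m.commutator_le
  rwa [map_le_iff_le_comap, comap_map_eq, QuotientGroup.ker_mk'] at this

theorem exists_sl3 {c τ i z : G} (c3 : c ^ 3 = 1) (ττ : τ * τ = 1) (τc : τ * c = c⁻¹ * τ) (ii : i * i = z)
    (hz : ∀ g, g * z = z * g) (zz : z * z = 1) (z1 : z ≠ 1) (iτ : i * τ = τ * z * i) (r1 : (i * c) ^ 3 = 1) :
    ∃ ψ : SL(2, ZMod 3) →* G, Function.Injective ψ ∧ ψ.range = closure {c, i} := by
  have u : ∀ a : (ZMod 3)ˣ, a = 1 ∨ a = -1 := by decide
  have u' : (-1 : (ZMod 3)ˣ) ≠ 1 := by decide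
  have τ2 : ∀ r, τ * (τ * r) = r := fun r => by rw [← mul_assoc, ττ, one_mul]
  have z2 : ∀ r, z * (z * r) = r := fun r => by rw [← mul_assoc, zz, one_mul]
  have zτ : ∀ r, z * (τ * r) = τ * (z * r) := fun r => by rw [← mul_assoc, ← hz, mul_assoc]
  have v : (-1 : ZMod 3).val = 2 := rfl
  have c2 : c ^ 2 = c⁻¹ := eq_inv_of_mul_eq_one_left (by rw [← pow_succ, c3])
  obtain ⟨ψ, h1, h2, h3⟩ := exists_gl2_hom (F := ZMod 3) (fun t => c ^ t.val)
    (fun a b => (if a = 1 then 1 else τ) * if b = 1 then 1 else τ * z) i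
    (fun s t => by rw [ZMod.val_add, ← pow_eq_pow_mod _ c3, pow_add]) (fun a b a' b' => by
      rcases u a with rfl | rfl <;> rcases u b with rfl | rfl <;> rcases u a' with rfl | rfl <;>
        rcases u b' with rfl | rfl <;> simp [u', mul_assoc, τ2, z2, zτ, ττ, zz, ← hz τ]) (fun a b t => by
      have e : τ * c ^ t.val = c ^ (-t).val * τ := by
        have : τ * c⁻¹ = c * τ := by rw [mul_inv_eq_iff_eq_mul, mul_assoc, τc, mul_inv_cancel_left]
        fin_cases t
        exacts [(by simp : τ * c ^ 0 = c ^ 0 * τ), (by rw [c2, pow_one, τc] : τ * c ^ 1 = c ^ 2 * τ),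
          (by rw [c2, pow_one, this] : τ * c ^ 2 = c ^ 1 * τ)]
      rcases u a with rfl | rfl <;> rcases u b with rfl | rfl <;> simp [u', mul_assoc, τ2, e, ← hz, div_neg]
      rw [← mul_assoc, e, mul_assoc]) (fun a b => by
      rcases u a with rfl | rfl <;> rcases u b with rfl | rfl <;> simp [u', mul_assoc, τ2, iτ, hz i]
      rw [← mul_assoc, iτ, hz, hz τ, mul_assoc z, z2]) (by simp [u', τ2, ii]) (fun l => by
      have i' : i⁻¹ = i * z := inv_eq_of_mul_eq_one_right (by rw [← mul_assoc, ii, zz])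
      have e : i * (c * i) = c⁻¹ * (i⁻¹ * c⁻¹) := by
        rw [← mul_left_inj (c * (i * c)), ← r1.trans (by group : 1 = c⁻¹ * (i⁻¹ * c⁻¹) * (c * (i * c)))]
        simp only [pow_succ, pow_zero, one_mul, mul_assoc]
      rcases u l with rfl | rfl <;> simp [u', τ2, v, ZMod.val_one, c2, inv_neg, mul_assoc]
      · rw [e, i', mul_assoc]
      · rw [← mul_right_inj z, ← mul_assoc z, ← hz i, ← i', ← mul_left_inj z, mul_assoc, mul_assoc, ← i', ← mul_inv_rev,
          ← mul_inv_rev, mul_assoc, e]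
        simp only [mul_inv_rev, inv_inv, mul_assoc]
        rw [← mul_assoc z, ← hz, ← mul_assoc, ← mul_assoc, mul_assoc _ z, ← hz, hz]
        rw [mul_assoc c (z * i), mul_assoc z, ← mul_assoc i, ← mul_assoc z, ← hz, mul_assoc _ z, zz, mul_one, mul_assoc])
  refine ⟨ψ.comp toGL, (injective_iff_map_eq_one _).2 fun A hA => by_contra fun A1 => z1 ?_, le_antisymm ?_
    ((closure_le _).2 ?_)⟩
  · have k : ∀ A : SL(2, ZMod 3), A ≠ 1 → A = -1 ∨ A * A = -1 ∨ ∃ B, A * B * A⁻¹ * B⁻¹ * (A * B * A⁻¹ * B⁻¹) = -1 := by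
      decide +kernel
    have e : ψ.comp toGL (-1) = z := by
      rw [MonoidHom.comp_apply, show toGL (-1 : SL(2, ZMod 3)) = dg (-1) (-1) by
        ext i j; fin_cases i <;> fin_cases j <;> simp [dg, gl_coe], dg, h2]
      simp [u', τ2]
    rw [← e]
    obtain rfl | e | ⟨B, e⟩ := k A A1
    · exact hA
    all_goals rw [← e]; simp only [map_mul, map_inv, hA]; simp
  · rintro _ ⟨A, rfl⟩
    exact sl_ind (K := (closure {c, i}).comap ψ) (fun t h => by
      rw [mem_comap, h1]; exact pow_mem (subset_closure (by simp)) _)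
      (fun h => by rw [mem_comap, h3]; exact subset_closure (by simp)) A
  · rintro _ (rfl | rfl)
    · obtain ⟨s, hs⟩ := exists_sl (g := gl (1 : ZMod 3) 1 0 1 (by simp)) (by ext; simp [gl_coe])
      exact ⟨s, by rw [MonoidHom.comp_apply, hs, h1, ZMod.val_one, pow_one]⟩
    · obtain ⟨s, hs⟩ := exists_sl (g := gl (0 : ZMod 3) 1 (-1) 0 (by simp)) (by ext; simp [gl_coe])
      exact ⟨s, by rw [MonoidHom.comp_apply, hs, h3]⟩

end Cfsg.Lib.G2
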