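import Cfsg.Agent.Lib.G2.Tw2
import Cfsg.Agent.Lib.G2.DD

/-!
Fusion in the centralizer of the central involution.
-/

set_option autoImplicit false

namespace Cfsg.Lib.G2

open Subgroup Tw Cfsg.Lib.FT Cfsg.Lib.GW

variable {n : ℕ} {G : Type*} [Group G] [Finite G]

theorem mem_W {z t s : G} (hz : ∀ g, g * z = z * g) (zz : z * z = 1) :
    s ∈ normalizer ({t, t * z} : Set G) ↔ s * t * s⁻¹ = t ∨ s * t * s⁻¹ = t * z :=
  ⟨fun h => (h t).1 (Or.inl rfl), fun h => mem_normalizer_fintype (by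
    have e : s * (t * z) * s⁻¹ = s * t * s⁻¹ * z := by rw [← mul_assoc, mul_assoc _ z, ← hz, mul_assoc (s * t)]
    rintro _ (rfl | rfl)
    · exact h
    · exact h.symm.imp (fun h => by rw [e, h, mul_assoc, zz, mul_one]) fun h => by rw [e, h]; rfl)⟩

theorem compl_of_central (P : Sylow 2 G) (hc : IsMulCommutative (P : Subgroup G))
    (h : ∀ t ∈ (P : Subgroup G), t * t = 1 → t ∈ center G) : HasNormalPComplement 2 G :=
  frobenius_normal_complement_of_coprime P fun Q hQ _ g hg ho => by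
    have : ∀ k : ℕ, ∀ x ∈ Q, x ^ 2 ^ k = 1 → MulAut.conj g x = x := fun k => by
      induction k with
      | zero => intro x _ e; simp_all
      | succ k ih =>
        intro x hx e
        have m : MulAut.conj g x ∈ Q := (hg x).1 hx
        have c : Commute x⁻¹ (MulAut.conj g x) := congrArg Subtype.val (hc.1.1 ⟨_, hQ (inv_mem hx)⟩ ⟨_, hQ m⟩)
        have e' : (x⁻¹ * MulAut.conj g x) ^ 2 = 1 := by
          rw [c.mul_pow, ← map_pow, ih _ (pow_mem hx 2) (by rw [← pow_mul, ← pow_succ', e])]; simp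
        exact pg_aut_fixed_of_fixed (p := 2) (by rw [← map_pow, pow_orderOf_eq_one, map_one]) ho.symm ⟨1, e'⟩
          (mul_inv_eq_iff_eq_mul.2 (mem_center_iff.1 (h _ (hQ (mul_mem (inv_mem hx) m)) ((sq _).symm.trans e')) g))
    exact mem_centralizer_iff.2 fun x hx => by
      obtain ⟨k, e⟩ := P.isPGroup' ⟨x, hQ hx⟩
      exact (mul_inv_eq_iff_eq_mul.1 (this k x hx (congrArg Subtype.val e))).symm

/-- conjugation between elements of the Sylow subgroup -/
def Mv (f : Tw n →* G) (g : G) (s t : Tw n) : Prop := g * f s * g⁻¹ = f t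

namespace Mv

omit [Finite G]

variable {f : Tw n →* G} {g g' : G} {s t s' t' : Tw n}

theorem mul (h : Mv f g s t) (h' : Mv f g s' t') : Mv f g (s * s') (t * t') := by
  rw [Mv, map_mul, map_mul, ← conj_mul, h, h']

theorem inv (h : Mv f g s t) : Mv f g s⁻¹ t⁻¹ := by rw [Mv, map_inv, map_inv, ← conj_inv, h]

theorem comp (h : Mv f g s t) (h' : Mv f g' t t') : Mv f (g' * g) s t' := by rw [Mv, ← h', ← h]; group

theorem self (c s : Tw n) : Mv f (f c) s (c * s * c⁻¹) := by simp [Mv]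

theorem of_eq {c : Tw n} (e : c * s * c⁻¹ = t) : Mv f (f c) s t := e ▸ self c s

theorem eq_to (h : Mv f g s t) (e : t = t') : Mv f g s t' := e ▸ h

theorem one : Mv f g 1 1 := by simp [Mv]

theorem symm (h : Mv f g s t) : Mv f g⁻¹ t s := by rw [Mv, ← h]; group

end Mv

/-- the situation in the centralizer of the central involution -/
structure Loc (f : Tw n →* G) : Prop extends Syl f where
  cen : ∀ g, g * f tz = f tz * g
  fus : ∀ s w, s * s = 1 → w * s = s * w → w * w = tz → s ≠ 1 → s ≠ tz → IsConj (f s) (f t1)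

namespace Loc

variable {f : Tw n →* G} (h : Loc f)
include h

theorem swap' : Loc (f.comp τ) where
  inj := h.inj.comp (Function.LeftInverse.injective τ_τ)
  syl := by
    rw [MonoidHom.range_comp, MonoidHom.range_eq_top.2 (Function.RightInverse.surjective τ_τ), ← MonoidHom.range_eq_map]
    exact h.syl
  cen := by simpa using h.cen
  fus s w h1 h2 h3 h4 h5 := by
    simpa using h.fus (τ s) (τ w) (by rw [← map_mul, h1, map_one]) (by rw [← map_mul, h2, map_mul])
      (by rw [← map_mul, h3, τ_z]) (fun e => h4 (by simpa using congrArg τ e)) fun e => h5 (by simpa using congrArg τ e)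

theorem mz (g : G) : Mv f g tz tz := mul_inv_eq_iff_eq_mul.2 (h.cen g)

theorem eq_iff {g : G} {s t s' t' : Tw n} (h1 : Mv f g s t) (h2 : Mv f g s' t') : s = s' ↔ t = t' :=
  ⟨fun e => h.inj (by rw [← h1, ← h2, e]), fun e => h.inj (by subst e; simpa using h1.trans (Eq.symm h2))⟩

theorem sq {g : G} {s t : Tw n} (h1 : Mv f g s t) (e : s * s = tz) : t * t = tz := (h.eq_iff (h1.mul h1) (h.mz g)).1 e

theorem cm {g : G} {s t s' t' : Tw n} (h1 : Mv f g s t) (h2 : Mv f g s' t') (e : s * s' = s' * s) : t * t' = t' * t :=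
  (h.eq_iff (h1.mul h2) (h2.mul h1)).1 e

theorem memW {g : G} {t : Tw n} : g ∈ normalizer ({f t, f t * f tz} : Set G) ↔ Mv f g t t ∨ Mv f g t (t * tz) := by
  rw [mem_W h.cen (by rw [← map_mul, z_mul_z, map_one]), ← map_mul]; rfl

theorem ext2 {t t' : Tw n} {g : G} (hg : Mv f g t t') (ht : ∀ s, s * t' * s⁻¹ = t' ∨ s * t' * s⁻¹ = t' * tz) :
    ∃ g, (Mv f g t t' ∨ Mv f g t (t' * tz)) ∧ ∀ s, s * t * s⁻¹ = t ∨ s * t * s⁻¹ = t * tz → ∃ s', Mv f g s s' := by
  obtain ⟨k, hk, φ, e⟩ := h.ext (K := normalizer ({f t', f t' * f tz} : Set G)) (by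
    rintro _ ⟨s, rfl⟩; exact h.memW.2 ((ht s).imp .of_eq .of_eq)) (normalizer {t, t * tz}) (g := g)
    fun s hs => h.memW.2 (((mem_W z_comm z_mul_z).1 hs).imp
      (fun e => by simpa only [mul_assoc] using (hg.symm.comp (.self s t)).comp (by rwa [e]))
      fun e => by simpa only [mul_assoc] using (hg.symm.comp (.self s t)).comp (by rw [e]; exact hg.mul (h.mz g)))
  exact ⟨k * g, (h.memW.1 hk).imp hg.comp hg.comp, fun s hs => ⟨_, e ⟨s, (mem_W z_comm z_mul_z).2 hs⟩⟩⟩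

theorem ext1 {t : Tw n} (ht : IsConj (f t) (f t1)) :
    ∃ g, Mv f g t t1 ∧ ∀ s, s * t * s⁻¹ = t ∨ s * t * s⁻¹ = t * tz → ∃ s', Mv f g s s' := by
  obtain ⟨g, hg⟩ := isConj_iff.1 ht
  obtain ⟨g, hg | hg, e⟩ := h.ext2 hg fun s => by rw [conj_t1]; split_ifs <;> simp
  · exact ⟨g, hg, e⟩
  · refine ⟨_, ?_, fun s hs => (e s hs).elim fun _ e => ⟨_, e.comp (.self ⟨0, 0, false, true⟩ _)⟩⟩
    convert hg.comp (.self ⟨0, 0, false, true⟩ _) using 1
    simp [t1, tz]; linear_combination -k_four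

theorem not_swap {g : G} (hg : Mv f g i2 i1 ∨ Mv f g i2 (i1 * tz)) : False := by
  obtain ⟨g, hg⟩ : ∃ g, Mv f g i2 i1 := hg.elim (⟨_, ·⟩) fun e => ⟨_, by
    convert e.comp (.self ⟨0, 0, true, false⟩ _) using 1
    simp [i1, tz]; linear_combination k_four⟩
  obtain ⟨g, hg, e⟩ := h.ext2 hg conj_i1
  choose φ hφ using fun s => e s (conj_i2 s)
  have sj : Function.Surjective φ := Finite.injective_iff_surjective.1 fun a b e => (h.eq_iff (hφ a) (hφ b)).2 e
  obtain ⟨c, hc⟩ := sj ⟨1, 0, false, false⟩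
  have hd : (φ i1).d = false := by
    have k := ((hφ c).mul (hφ i1)).mul (hφ c).inv
    have := (conj_i1 c).imp (h.eq_iff k (hφ i1)).1 (h.eq_iff k ((hφ i1).mul (h.mz g))).1
    rw [hc] at this
    generalize φ i1 = s at this
    have k1 := k_odd (n := n) 0
    have k2 := k_odd (n := n) (2 ^ n)
    rcases s with ⟨x, y, _ | _, _ | _⟩ <;> simp [tz] at this ⊢
    · exact this.elim (fun e => k1 (by linear_combination -e)) fun e => k2 (by linear_combination -e.1)
    · exact this.elim (fun e => k1 (by linear_combination -e)) fun e => k2 (by linear_combination k_four - e.2)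
  have m : ∀ {g : G} {s t : Tw n}, Mv f g s t → Mv f g (s * tz) (t * tz) ∧ Mv f g (s * tz * tz) t ∧
      Mv f g s (t * tz * tz) := fun e => ⟨e.mul (h.mz _), by rwa [mul_assoc, z_mul_z, mul_one], by
        rwa [mul_assoc, z_mul_z, mul_one]⟩
  have n1 : ¬ (Mv f g i1 i1 ∨ Mv f g i1 (i1 * tz)) := fun e => by
    rcases e with e | e <;> rcases hg with e' | e'
    exacts [i1_ne.1 ((h.eq_iff e e').2 rfl), i1_ne.2 ((h.eq_iff (m e).2.2 (m e').1).2 rfl),
      i1_ne.2 ((h.eq_iff e (m e').1).2 rfl), i1_ne.1 ((h.eq_iff e e').2 rfl)]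
  obtain e | e := Y_A (h.sq (hφ i1) i1_sq) hd
  · exact n1 (e.imp (hφ i1).eq_to (hφ i1).eq_to)
  have g2 : g ^ 2 ∈ normalizer ({f i1, f i1 * f tz} : Set G) := h.memW.2 (by
    have := hφ i1
    rw [pow_two]
    rcases e with e | e <;> rw [e] at this <;> rcases hg with e' | e'
    exacts [.inl (this.comp e'), .inr (this.comp e'), .inr (this.comp (m e').1),
      .inl (this.comp (by simpa [mul_assoc, z_mul_z] using (m e').1))])
  have hn : g ∈ N[f.range] := mem_normalizer_fintype (by rintro _ ⟨s, rfl⟩; exact ⟨_, Eq.symm (hφ s)⟩)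
  obtain ⟨k, hk⟩ := Nat.odd_iff.2 (Nat.two_dvd_ne_zero.1 (h.syl.mono le_normalizer le_top).not_dvd_relIndex)
  obtain ⟨s, hs⟩ := (pow_index_mem (H := f.range.subgroupOf N[f.range]) ⟨g, hn⟩ :)
  have : g ^ (2 * k + 1) ∈ normalizer ({f i1, f i1 * f tz} : Set G) := by
    rw [← hk]; exact (show f s = g ^ _ from hs) ▸ h.memW.2 ((conj_i1 s).imp .of_eq .of_eq)
  rw [pow_succ, pow_mul, mul_mem_cancel_left (pow_mem g2 k)] at this
  exact n1 (h.memW.1 this)

theorem adj {g : G} {p p' q' : Tw n} (h1 : Mv f g p p') (h2 : Mv f g i2 q') (e1 : p' * q' = t1)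
    (e2 : q' * t1 = t1 * q') : ∃ c, Mv f (f c * g) p i1 ∧ Mv f (f c * g) i2 i2 := by
  obtain e | rfl | rfl := Y_A (h.sq h2 i2_sq) (d_of_t1 e2)
  · exact (h.not_swap (e.imp h2.eq_to h2.eq_to)).elim
  · exact ⟨1, by simpa [mul_right_cancel (e1.trans i1_i2.symm)] using h1, by simpa using h2⟩
  · obtain rfl : p' = i1 * tz := mul_right_cancel (e1.trans (by
      rw [mul_assoc, ← mul_assoc tz, ← z_comm, mul_assoc i2, z_mul_z, mul_one, i1_i2]))
    refine ⟨⟨0, 0, true, false⟩, ?_, ?_⟩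
    · convert h1.comp (.self ⟨0, 0, true, false⟩ _) using 1
      simp [i1, tz]; linear_combination k_four
    · convert h2.comp (.self ⟨0, 0, true, false⟩ _) using 1
      simp [i2, tz]; exact ⟨by linear_combination k_four, by ring⟩

theorem fuse1 {s : Tw n} (hs : s ∈ Q1) (hd : s.d = true) : ∃ g, Mv f g s i1 ∧ Mv f g i2 i2 := by
  have c := Q_comm hs (show i2 ∈ Q2 by simp [mem_Q2, i2])
  have ss : s * s = tz := by
    obtain ⟨x, y, _ | _, d⟩ := s <;> subst hd <;> simp [mem_Q1, tz] at hs ⊢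
    exact ⟨by linear_combination hs, by linear_combination -hs - k_four⟩
  have c2 : i2 * (s * i2) = s * i2 * i2 := by rw [← mul_assoc, c]
  obtain ⟨g, hg, e⟩ := h.ext1 (h.fus (s * i2) i2 (by
    rw [mul_assoc, c2, ← mul_assoc, ← mul_assoc, ss, mul_assoc, i2_sq, z_mul_z]) c2 i2_sq
    (fun e => by simpa [hd, i2, one_def] using congrArg Tw.d e) fun e => by simpa [hd, i2, tz] using congrArg Tw.d e)
  obtain ⟨p, hp⟩ := e s (.inl (by rw [mul_inv_eq_iff_eq_mul, mul_assoc, c]))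
  obtain ⟨q, hq⟩ := e i2 (.inl (by rw [c2, mul_inv_cancel_right]))
  obtain ⟨c, e⟩ := h.adj hp hq ((h.eq_iff (hp.mul hq) hg).1 rfl) (h.cm hq hg c2)
  exact ⟨_, e⟩

theorem R_iff {g : G} (h1 : Mv f g i1 i1) (h2 : Mv f g i2 i2) {s r : Tw n} (e : Mv f g s r) (hr : r ∈ Rs) : s ∈ Rs := by
  let D := C1[f i1] ⊓ C1[f i2]
  have hn : ∀ y ∈ normalizer ({f i1, f i1 * f tz} : Set G) ⊓ normalizer ({f i2, f i2 * f tz} : Set G), y ∈ N[D] := by
    have : ∀ {y d : G} {t : Tw n}, y ∈ normalizer ({f t, f t * f tz} : Set G) → d ∈ C1[f t] → y * d * y⁻¹ ∈ C1[f t] :=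
      fun {y d t} hy hd => by
        have := DD.conj_mem_c1 hd y
        rcases h.memW.1 hy with e | e <;> rw [e] at this
        · exact this
        · have := mem_c1.1 this
          rw [map_mul, ← mul_assoc, mul_assoc _ (f tz), ← h.cen, ← mul_assoc] at this
          exact mem_c1.2 (mul_right_cancel this)
    exact fun y hy => mem_normalizer_fintype fun d hd => ⟨this hy.1 hd.1, this hy.2 hd.2⟩
  have hS : f.range ≤ normalizer ({f i1, f i1 * f tz} : Set G) ⊓ normalizer ({f i2, f i2 * f tz} : Set G) := by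
    rintro _ ⟨s, rfl⟩
    exact ⟨h.memW.2 ((conj_i1 s).imp .of_eq .of_eq),
      h.memW.2 ((conj_i2 s).imp .of_eq .of_eq)⟩
  have hT : IsSylowIn 2 (f.range ⊓ D) D := (h.syl.mono hS le_top).inf_of_le_normalizer (fun d hd =>
    ⟨h.memW.2 (.inl (DD.conj_eq_of_c1 hd.1)), h.memW.2 (.inl (DD.conj_eq_of_c1 hd.2))⟩) hn
  have hA : ∀ s, f s ∈ D → s.e = false ∧ s.d = false := fun s hs => by
    have a := h.inj ((map_mul ..).trans ((mem_c1.1 hs.1).trans (map_mul ..).symm))
    have b := h.inj ((map_mul ..).trans ((mem_c1.1 hs.2).trans (map_mul ..).symm))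
    have := k_two (n := n)
    rcases s with ⟨x, y, _ | _, _ | _⟩ <;> simp [i1, i2] at a b ⊢
    exacts [this (by linear_combination -b.1), this (by linear_combination -a.1), this (by linear_combination -a.1)]
  obtain ⟨P, hP⟩ := hT.exists_sylow'
  have ho : Odd (Nat.card (DD.rs D)) := by
    rw [DD.rs, card_map_of_injective D.subtype_injective, ← Nat.not_even_iff_odd, even_iff_two_dvd]
    refine hasNormalPComplement_iff_not_dvd.1 (compl_of_central P (isMulCommutative_of_forall fun a ha b hb => ?_)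
      fun t ht tt => mem_center_iff.2 fun d => Subtype.ext ?_)
    · obtain ⟨⟨s, hs : f s = a⟩, -⟩ := hP ▸ ha
      obtain ⟨⟨t, ht : f t = b⟩, -⟩ := hP ▸ hb
      have a := hA s (hs ▸ a.2)
      have b := hA t (ht ▸ b.2)
      refine Subtype.ext ?_
      rw [coe_mul, coe_mul, ← hs, ← ht, ← map_mul, ← map_mul]
      obtain ⟨_, _, _, _⟩ := s; obtain ⟨_, _, _, _⟩ := t
      simp_all [add_comm]
    · obtain ⟨⟨s, hs : f s = t⟩, -⟩ := hP ▸ ht
      have a := hA s (hs ▸ t.2)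
      have c1 : (d : G) * f t1 = f t1 * d := by
        rw [← i1_i2, map_mul]; exact (Commute.mul_right (mem_c1.1 d.2.1) (mem_c1.1 d.2.2) :)
      rw [coe_mul, coe_mul, ← hs]
      obtain rfl | rfl | e := invA (s := s) (h.inj (by rw [map_mul, hs, map_one]; exact congrArg Subtype.val tt)) a.1 a.2
      · simp
      · exact h.cen _
      obtain ⟨c, rfl⟩ := isConj_iff.1 e
      rw [conj_t1]
      split_ifs
      · rw [map_mul]; exact (Commute.mul_right c1 (h.cen _) :)
      · exact c1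
  obtain ⟨k, hk, _, ⟨⟨c, rfl⟩, -⟩, rfl⟩ := DD.exists_rs_mul hT (g := g) ⟨DD.c1_of_conj h1, DD.c1_of_conj h2⟩
  have e' : f (r * (c * s * c⁻¹)⁻¹) = k * (f (c * s * c⁻¹) * k⁻¹ * (f (c * s * c⁻¹))⁻¹) := by
    rw [map_mul, ← e]; simp [mul_assoc]
  have := (Wal.inf_eq_bot_of_odd h.syl.isPGroup ho).le (x := f (r * (c * s * c⁻¹)⁻¹)) ⟨⟨_, rfl⟩, e' ▸ mul_mem hk
    ((DD.rs_norm D (hn _ (hS ⟨_, rfl⟩)) _).1 (inv_mem hk))⟩
  exact (conj_R c).1 (mul_inv_eq_one.1 (h.inj (this.trans (map_one f).symm)) ▸ hr)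

theorem not_fus : ¬ IsConj (f ⟨1, 0, true, false⟩) (f t1) := fun e => by
  have w : ∀ s : Tw n, s.d = false → (i1 * s * i1⁻¹ = s ∨ i1 * s * i1⁻¹ = s * tz) ∧
      (i2 * s * i2⁻¹ = s ∨ i2 * s * i2⁻¹ = s * tz) := by
    rintro ⟨x, y, _ | _, d⟩ rfl <;> simp [i1, i2, tz, neg_k]
    exact ⟨.inr ⟨by ring, by ring⟩, .inr ⟨by ring, by linear_combination -k_four⟩⟩
  obtain ⟨g, hg, e⟩ := h.ext1 e
  obtain ⟨p, hp⟩ := e i1 (w _ rfl).1
  obtain ⟨q, hq⟩ := e i2 (w _ rfl).2
  have d : ∀ {i p : Tw n}, Mv f g i p → i * ⟨1, 0, true, false⟩ ≠ ⟨1, 0, true, false⟩ * i → p.d = true := fun {i p} h1 h2 => by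
    by_contra hd
    have := conj_t1 p
    rw [if_neg hd, mul_inv_eq_iff_eq_mul] at this
    exact h2 ((h.eq_iff (h1.mul hg) (hg.mul h1)).2 this)
  have k := k_two (n := n)
  have c := h.cm hp hq (by simp [i1, i2, add_comm])
  have hw := i1_i2 ▸ hp.mul hq
  have c1 : p * (p * q) = p * q * p := by rw [mul_assoc, ← c]
  have c2 : q * (p * q) = p * q * q := by rw [← mul_assoc, ← c]
  obtain ⟨g', hg', e'⟩ := h.ext1 (h.fus (p * q) p ((h.eq_iff (hw.mul hw) .one).1 (by
    simp [t1, one_def]; linear_combination k_four)) c1 (h.sq hp i1_sq) (mt (h.eq_iff hw .one).2 (by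
      simp [t1, one_def, k])) (mt (h.eq_iff hw (h.mz g)).2 (by simp [t1, tz, k.symm])))
  have wd : (p * q).d = false := by
    simp [d hp (by simp [i1]; intro e; exact (k (by linear_combination e)).elim),
      d hq (by simp [i2]; intro e; exact (k (by linear_combination e)).elim)]
  obtain ⟨p', hp'⟩ := e' p (.inl (by rw [c1, mul_inv_cancel_right]))
  obtain ⟨q', hq'⟩ := e' q (.inl (by rw [c2, mul_inv_cancel_right]))
  obtain ⟨a, ha⟩ := e' i1 (w _ wd).1
  obtain ⟨b, hb⟩ := e' i2 (w _ wd).2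
  obtain ⟨c, e1, e2⟩ := h.adj (hp.comp hp') (hq.comp hq') ((h.eq_iff (hp'.mul hq') hg').1 rfl) (h.cm hq' hg' c2)
  obtain ⟨r, hr⟩ := h.R_iff e1 e2 ((hg.comp (i1_i2 ▸ ha.mul hb)).comp (.self c _))
    ((conj_R c).2 (mul_mem (Y_R (h.sq ha i1_sq)) (Y_R (h.sq hb i2_sq))))
  exact k_odd r (by simpa using hr.symm)

theorem mem_res {s : Tw n} : f s ∈ pResidual 2 G ↔ s ∈ Rs := by
  obtain ⟨S, hS⟩ := h.syl.exists_sylow_top
  have h0 : (⟨1, 0, true, false⟩ : Tw n) ∉ Rs := fun ⟨r, hr⟩ => k_odd r (by simpa using hr.symm)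
  have h1 : f ⟨1, 0, true, false⟩ ∉ pResidual 2 G := fun e => by
    have m : ∀ s, f s ∈ Rs.map f ↔ s ∈ Rs := fun s => mem_map_iff_mem h.inj
    obtain ⟨g, r, hr, e⟩ := thompson_transfer S (M := Rs.map f) (hS ▸ DD.relIndex_two ⟨_, rfl⟩ (mt (m _).1 h0) (by
      rintro _ ⟨s, rfl⟩ _ ⟨t, rfl⟩ a b
      rw [← map_mul, m] at *; exact R_idx a b)) (by rw [← map_pow, pow_two, ← map_one f]; simp [one_def]) e
    have e : Mv f g _ r := e.symm
    have rr := (h.eq_iff (e.mul e) .one).1 (by simp [one_def])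
    have r1 := mt (h.eq_iff e .one).2 (by simp [one_def])
    have r2 := mt (h.eq_iff e (h.mz g)).2 (by simp [tz])
    refine h.not_fus ((isConj_iff.2 ⟨g, e⟩).trans ?_)
    obtain ⟨k1, k2⟩ | ⟨w, k1, k2⟩ | ⟨-, -, ⟨r', k⟩, -⟩ := tri rr
    · exact f.map_isConj (((invA rr k1 k2).resolve_left r1).resolve_left r2).symm
    · exact h.fus r w rr k1 k2 r1 r2
    · obtain ⟨r'', k'⟩ := hr
      exact (k_odd (r'' - r') (by linear_combination k - k')).elim
  let T := (pResidual 2 G).comap f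
  have a : ∀ e d, (e || d) = true → ∃ x y, 2 * x = 0 ∧ 2 * y = 0 ∧ ⟨x, y, e, d⟩ ∈ T := fun e d hed => by
    obtain ⟨g, hg⟩ := isConj_iff.1 (h.fus ⟨0, 0, e, d⟩ (if d then if e then i2 else i1 else ⟨0, 2 * 2 ^ n, false, true⟩)
      (by simp [one_def]) (by cases e <;> cases d <;> simp_all [i1, i2, neg_k])
      (by cases e <;> cases d <;> simp [i1_sq, i2_sq, tz]) (by cases e <;> cases d <;> simp_all [one_def])
      (by cases e <;> cases d <;> simp_all [tz])).symm
    obtain ⟨k, hk, _, ⟨c, rfl⟩, rfl⟩ := (mem_sup_of_normal_left).1 (hS ▸ pResidual_sup_sylow S ▸ mem_top g :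
      g ∈ pResidual 2 G ⊔ f.range)
    have : ⟨0, 0, e, d⟩ * (c * t1 * c⁻¹)⁻¹ ∈ T := by
      rw [mem_comap, map_mul, ← hg, map_inv, show k * f c * f t1 * (k * f c)⁻¹ * (f (c * t1 * c⁻¹))⁻¹ =
        k * (f (c * t1 * c⁻¹) * k⁻¹ * (f (c * t1 * c⁻¹))⁻¹) by simp [mul_assoc]]
      exact mul_mem hk (Normal.conj_mem inferInstance _ (inv_mem hk) _)
    have k := k_four (n := n)
    rw [conj_t1] at this
    split_ifs at this <;> refine ⟨_, _, ?_, ?_, by simpa [t1, tz] using this⟩ <;> cases e <;> cases d <;> simp <;>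
      first | linear_combination k | linear_combination 2 * k | linear_combination -k | linear_combination -2 * k
  have b : ∀ x y, x + y = 0 ∨ x - y = 0 → ⟨x, y, false, false⟩ ∈ T := fun x y e => by
    have : ∀ g ∈ T, (⟨1, 0, false, false⟩ : Tw n) * g * ⟨1, 0, false, false⟩⁻¹ * g⁻¹ ∈ T := fun g hg =>
      mul_mem (Normal.conj_mem inferInstance _ hg _) (inv_mem hg)
    rcases e with e | e
    · obtain ⟨p, q, -, -, k⟩ := a false true rfl
      convert zpowers_le.2 (this _ k) (by simpa using mem_zp 1 (-1) x) using 2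
      linear_combination e
    · obtain ⟨p, q, -, -, k⟩ := a true true rfl
      convert zpowers_le.2 (this _ k) (by simpa using mem_zp 1 1 x) using 2
      linear_combination -e
  have b' : ∀ x y r, x + y = 2 * r → ⟨x, y, false, false⟩ ∈ T := fun x y r e => by
    convert mul_mem (b r r (by simp)) (b (x - r) (r - x) (by simp)) using 1
    simp; linear_combination e
  have c : Rs ≤ T := by
    rintro ⟨x, y, e, d⟩ ⟨r, hr : x + y = _⟩
    by_cases hed : (e || d) = true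
    · obtain ⟨p, q, h1, h2, k⟩ := a e d hed
      obtain ⟨r', h3⟩ : ∃ r', p + q = 2 * r' := by
        rcases k_half h1 with rfl | rfl <;> rcases k_half h2 with rfl | rfl
        exacts [⟨0, by simp⟩, ⟨_, zero_add _⟩, ⟨_, add_zero _⟩, ⟨_, (two_mul _).symm⟩]
      convert mul_mem (b' (x - p) (y - q) (r - r') (by linear_combination hr - h3)) k using 1
      simp
    · obtain ⟨rfl, rfl⟩ : e = false ∧ d = false := by simpa using hed
      exact b' x y r hr
  exact ⟨fun e => by_contra fun hs => h1 (show _ ∈ T by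
    simpa using mul_mem (c (R_idx h0 (mt inv_mem_iff.1 hs))) (show s ∈ T from e)), fun e => c e⟩

end Loc

end Cfsg.Lib.G2
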