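import Cfsg.Agent.Lib.G2.Case
import Cfsg.Agent.Lib.InvChar.SylTools

/-!
The structure of the centralizer modulo its core.
-/

set_option autoImplicit false

namespace Cfsg.Lib.G2

open Subgroup Tw Cfsg.Lib.FT Cfsg.Lib.GW
open scoped MatrixGroups commutatorElement

variable {n : ℕ} {G Y : Type*} [Group G] [Finite G] [Group Y] [Finite Y]

theorem Loc.main {f : Tw n →* G} (h : Loc f) (hO : oddCore G = ⊥) : ∃ L₁ L₂ : Subgroup G, L₁.Normal ∧ L₂.Normal ∧
    (∃ (F : Type) (_ : Field F) (_ : Fintype F), Odd (Fintype.card F) ∧ Nonempty (L₁ ≃* SL(2, F))) ∧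
    (∃ (F : Type) (_ : Field F) (_ : Fintype F), Odd (Fintype.card F) ∧ Nonempty (L₂ ≃* SL(2, F))) ∧
    ⁅L₁, L₂⁆ = ⊥ ∧ L₁ ⊔ L₂ = commutator G := by
  have zz : f tz * f tz = 1 := by rw [← map_mul, z_mul_z, map_one]
  have hc : ⊤ ≤ C[zpowers (f tz)] := fun g _ => mem_centralizer_iff.2 fun _ ⟨k, e⟩ =>
    e ▸ (Commute.zpow_left (h.cen g).symm k :)
  haveI : (zpowers (f tz)).Normal := ⟨fun x hx g => by
    rwa [← mem_centralizer_iff.1 (hc (mem_top g)) x hx, mul_inv_cancel_right]⟩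
  have b : Bar f (QuotientGroup.mk' (zpowers (f tz))) := ⟨h, hO, IC.pPrimeCore_quotient_central hO
    (isPGroup_zpowers_two zz) hc, QuotientGroup.mk'_surjective _, fun g =>
      (QuotientGroup.eq_one_iff g).trans (mem_zpowers_two zz)⟩
  obtain ⟨F, _, _, hF, ψ, hi, hn, hG, hs⟩ := b.p1
  obtain ⟨F', _, _, hF', ψ', hi', hn', hG', hs'⟩ := b.swap.p1
  replace hs' : ∀ s, f s ∈ ψ'.range ↔ s ∈ Q2 := fun s => by simpa [Q2] using hs' (τ s)
  have k : ∀ N : Subgroup G, N.Normal → (∀ s, f s ∈ N → s = 1 ∨ s = tz) → ∀ x ∈ N, x = 1 ∨ x = f tz := fun N hN h1 => by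
    have : ∀ x ∈ f.range ⊓ N, x = 1 ∨ x = f tz := by
      rintro _ ⟨⟨s, rfl⟩, hs⟩
      exact (h1 s hs).imp (by rintro rfl; exact map_one _) (congrArg f)
    have c : ∀ x ∈ f.range ⊓ N, ∀ g, g * x = x * g := fun x hx g => by
      rcases this x hx with rfl | rfl
      exacts [by simp, h.cen g]
    exact fun x hx => this x ⟨le_syl hO h.syl hN (fun a _ b hb => c b hb a)
      (fun t ht _ => mem_centralizer_iff.2 fun g _ => c t ht g) hx, hx⟩
  have c : ψ'.range ≤ C[ψ.range] := fun y hy => comm_of_sq (h9_two_ne_zero_of_odd_card hF) ψ zz (fun _ => h.cen _)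
    fun A => (k (ψ.range ⊓ ψ'.range) inferInstance (fun s e => Q_inf ((hs s).1 e.1) ((hs' s).1 e.2))
      ((ψ A)⁻¹ * (y * ψ A * y⁻¹)) ⟨ψ.range.mul_mem (ψ.range.inv_mem ⟨A, rfl⟩) (hn.conj_mem _ ⟨A, rfl⟩ y), by
        simpa [mul_assoc] using mul_mem (hn'.conj_mem _ hy (ψ A)⁻¹) (inv_mem hy)⟩).imp
      (fun e => (inv_mul_eq_one.1 e).symm) inv_mul_eq_iff_eq_mul.1
  refine ⟨ψ.range, ψ'.range, hn, hn', ⟨F, _, _, hF, ⟨(MonoidHom.ofInjective hi).symm⟩⟩,
    ⟨F', _, _, hF', ⟨(MonoidHom.ofInjective hi').symm⟩⟩, (commutator_comm _ _).trans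
      (commutator_eq_bot_iff_le_centralizer.2 c), le_antisymm (sup_le hG hG') fun g hg => ?_⟩
  obtain ⟨l, hl, x, hx, rfl⟩ := mem_sup_of_normal_left.1 (out_ab (h9_two_ne_zero_of_odd_card hF) hi hg)
  obtain ⟨l', hl', y, hy, rfl⟩ := mem_sup_of_normal_left.1 (out_ab (h9_two_ne_zero_of_odd_card hF') hi'
    ((mul_mem_cancel_left (hG hl)).1 hg))
  refine mul_mem (mem_sup_left hl) (mul_mem (mem_sup_right hl') (mem_sup_left ?_))
  obtain e | e := k (C[ψ.range] ⊓ C[ψ'.range]) inferInstance (fun s e => cent_R (fun t ht => h.inj (by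
    rw [map_mul, map_mul]; exact mem_centralizer_iff.1 e.1 _ ((hs t).2 ht))) fun t ht => h.inj (by
      rw [map_mul, map_mul]; exact mem_centralizer_iff.1 e.2 _ ((hs' t).2 ht))) y
    (mem_inf.2 ⟨(mul_mem_cancel_left (c hl')).1 hx, hy⟩) <;> rw [e]
  exacts [one_mem _, (hs _).2 z_Q]

theorem Loc.map {f : Tw n →* G} (h : Loc f) {π : G →* Y} (hs : Function.Surjective π) (ho : Odd (Nat.card π.ker)) :
    Loc (π.comp f) where
  inj := (injective_iff_map_eq_one _).2 fun s e => h.inj (((Wal.inf_eq_bot_of_odd h.syl.isPGroup ho).le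
    (x := f s) ⟨⟨s, rfl⟩, e⟩).trans (map_one f).symm)
  syl := by
    have := h.syl.map π
    rwa [map_top_of_surjective _ hs, ← MonoidHom.range_comp] at this
  cen g := by
    obtain ⟨g, rfl⟩ := hs g
    simpa using congrArg π (h.cen g)
  fus s w h1 h2 h3 h4 h5 := π.map_isConj (h.fus s w h1 h2 h3 h4 h5)

theorem Syl.loc {f : Tw n →* G} (h : Syl f) (h1 : ∀ x y : G, orderOf x = 2 → orderOf y = 2 → IsConj x y) :
    ∃ f' : Tw n →* C1[f tz], Loc f' := by
  have m : ∀ s, f s ∈ C1[f tz] := fun s => mem_c1.2 (by rw [← map_mul, z_comm, map_mul])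
  have o : ∀ s, s * s = 1 → s ≠ 1 → orderOf (f s) = 2 := fun s a b => by
    rw [orderOf_injective f h.inj, orderOf_eq_prime ((sq _).trans a) b]
  have k := k_two (n := n)
  obtain ⟨g, e1, e2⟩ := h.swap (t := t1) (w := i1) (h1 _ _ (o _ (by simp [t1, one_def]; linear_combination k_four)
    (by simp [t1, one_def, k])) (o _ z_mul_z z_ne)) (by simp [t1, tz, k.symm]) (by simp [t1, i1, add_comm]) i1_sq
  refine ⟨f.codRestrict _ m, ⟨fun a b e => h.inj (congrArg Subtype.val e), ?_⟩, fun g => Subtype.ext (mem_c1.1 g.2),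
    fun s w a b c d e => ?_⟩
  · have := Wal.sylow_sub (h.syl.mono (L := C1[f tz]) (by rintro _ ⟨s, rfl⟩; exact m s) le_top)
    convert this using 1
    ext x; simp [mem_subgroupOf, Subtype.ext_iff]
  · obtain ⟨g', e3, e4⟩ := h.swap (h1 _ _ (o s a d) (o _ z_mul_z z_ne)) e b c
    refine isConj_iff.2 ⟨⟨g * g', DD.c1_of_conj ?_⟩, Subtype.ext ?_⟩
    · rw [mul_inv_rev, ← mul_assoc, mul_assoc g, mul_assoc g, e4, e1]
    · show g * g' * f s * (g * g')⁻¹ = f t1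
      rw [mul_inv_rev, ← mul_assoc, mul_assoc g, mul_assoc g, e3, e2]

end Cfsg.Lib.G2
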