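import Cfsg.Agent.Lib.G2.Fus

/-!
The two quaternion subgroups of the model group.
-/

set_option autoImplicit false

namespace Cfsg.Lib.G2.Tw

open Subgroup

variable {n : ℕ}

/-- an element of order four -/
def i1 : Tw n := ⟨2 ^ n, 2 ^ n, false, false⟩

/-- an element of order four -/
def i2 : Tw n := ⟨2 ^ n, -2 ^ n, false, false⟩

/-- the symmetry -/
def τ : Tw n →* Tw n := MonoidHom.mk' (fun s => ⟨s.x, -s.y, xor s.e s.d, s.d⟩) (by
  rintro ⟨_, _, _ | _, _ | _⟩ ⟨_, _, _ | _, _ | _⟩ <;> simp [add_comm])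

@[simp] theorem τ_mk (x y : Zn n) (e d : Bool) : τ ⟨x, y, e, d⟩ = ⟨x, -y, xor e d, d⟩ := rfl

@[simp] theorem τ_τ (s : Tw n) : τ (τ s) = s := by rcases s with ⟨_, _, _ | _, _ | _⟩ <;> simp

@[simp] theorem τ_z : τ (tz : Tw n) = tz := by simp [tz, neg_k]

@[simp] theorem τ_t1 : τ (t1 : Tw n) = t1 := by simp [t1]

@[simp] theorem τ_i1 : τ (i1 : Tw n) = i2 := rfl

@[simp] theorem τ_i2 : τ (i2 : Tw n) = i1 := by simp [i1, i2]

/-- the central product of the two quaternion groups -/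
def Rs : Subgroup (Tw n) where
  carrier := {s | ∃ r, s.x + s.y = 2 * r}
  one_mem' := ⟨0, by simp [one_def]⟩
  mul_mem' := by
    rintro ⟨_, _, e, _ | _⟩ ⟨_, _, _, _⟩ ⟨r, h⟩ ⟨r', h'⟩ <;>
      exact ⟨r + (if e then -1 else 1) * r', by
        cases e <;> simp at h h' ⊢ <;> first | linear_combination h + h' | linear_combination h - h'⟩
  inv_mem' := by
    rintro ⟨_, _, e, _ | _⟩ ⟨r, h⟩ <;>
      exact ⟨(if e then 1 else -1) * r, by
        cases e <;> simp at h ⊢ <;> first | linear_combination h | linear_combination -h⟩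

/-- the first quaternion group -/
def Q1 : Subgroup (Tw n) where
  carrier := {s | s.e = s.d ∧ s.x - s.y = if s.d then 2 * 2 ^ n else 0}
  one_mem' := by simp [one_def]
  mul_mem' := by
    rintro ⟨_, _, _ | _, _ | _⟩ ⟨_, _, _ | _, _ | _⟩ h h' <;> simp at h h' ⊢
    exacts [by linear_combination h + h', by linear_combination h + h', by linear_combination h + h',
      by linear_combination h + h' + k_four]
  inv_mem' := by
    rintro ⟨_, _, _ | _, _ | _⟩ h <;> simp at h ⊢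
    exacts [by linear_combination -h, by linear_combination -h - k_four]

/-- the second quaternion group -/
def Q2 : Subgroup (Tw n) := Q1.comap τ

theorem mem_R {s : Tw n} : s ∈ Rs ↔ ∃ r, s.x + s.y = 2 * r := .rfl

theorem mem_Q1 {s : Tw n} : s ∈ Q1 ↔ s.e = s.d ∧ s.x - s.y = if s.d then 2 * 2 ^ n else 0 := .rfl

theorem mem_Q2 {s : Tw n} : s ∈ Q2 ↔ s.e = false ∧ s.x + s.y = if s.d then 2 * 2 ^ n else 0 := by
  rcases s with ⟨_, _, _ | _, _ | _⟩ <;> simp [Q2, mem_Q1]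

theorem τ_R {s : Tw n} : τ s ∈ Rs ↔ s ∈ Rs :=
  ⟨fun ⟨r, h⟩ => ⟨r + s.y, by have : s.x + -s.y = 2 * r := h; linear_combination this⟩,
    fun ⟨r, h⟩ => ⟨r - s.y, show s.x + -s.y = _ by linear_combination h⟩⟩

theorem R_idx {s t : Tw n} (hs : s ∉ Rs) (ht : t ∉ Rs) : s * t ∈ Rs := by
  obtain ⟨r, h | h⟩ := k_par (s.x + s.y)
  · exact (hs ⟨r, h⟩).elim
  obtain ⟨r', h' | h'⟩ := k_par (t.x + t.y)
  · exact (ht ⟨r', h'⟩).elim
  rcases s with ⟨_, _, _ | _, _ | _⟩ <;> rcases t with ⟨_, _, _, _⟩ <;> simp [mem_R] at h h' ⊢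
  exacts [⟨r + r' + 1, by linear_combination h + h'⟩, ⟨r + r' + 1, by linear_combination h + h'⟩,
    ⟨r - r', by linear_combination h - h'⟩, ⟨r - r', by linear_combination h - h'⟩]

theorem conj_R (c : Tw n) {s : Tw n} : c * s * c⁻¹ ∈ Rs ↔ s ∈ Rs := by
  by_cases hc : c ∈ Rs
  · rw [mul_mem_cancel_right (inv_mem hc), mul_mem_cancel_left hc]
  have k : ∀ c s : Tw n, c ∉ Rs → s ∈ Rs → c * s * c⁻¹ ∈ Rs := fun c s hc hs =>
    R_idx (by rwa [mul_mem_cancel_right hs]) (by rwa [inv_mem_iff])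
  exact ⟨fun h => by simpa [mul_assoc] using k c⁻¹ _ (by rwa [inv_mem_iff]) h, k c s hc⟩

theorem Q1_le : (Q1 : Subgroup (Tw n)) ≤ Rs := fun s h => ⟨s.y + if s.d then 2 ^ n else 0, by
  have := h.2; split_ifs at this ⊢ <;> linear_combination this⟩

theorem Q2_le : (Q2 : Subgroup (Tw n)) ≤ Rs := fun _ h => τ_R.1 (Q1_le h)

theorem Y_Q {s : Tw n} (h : s * s = tz) : s ∈ Q1 ∨ s ∈ Q2 := by
  rcases s with ⟨x, y, _ | _, _ | _⟩ <;> simp [tz, mem_Q1, mem_Q2, k_two.symm] at h ⊢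
  · exact (k_half (x := x - y) (by linear_combination h.1 - h.2)).imp_right fun e => by
      linear_combination e + h.2 + k_four
  · exact h.1
  · linear_combination h.1

theorem Y_R {s : Tw n} (h : s * s = tz) : s ∈ Rs := (Y_Q h).elim (Q1_le ·) (Q2_le ·)

theorem Y_A {s : Tw n} (h : s * s = tz) (hd : s.d = false) :
    (s = i1 ∨ s = i1 * tz) ∨ (s = i2 ∨ s = i2 * tz) := by
  rcases s with ⟨x, y, _ | _, d⟩ <;> subst hd <;> simp [tz, i1, i2, k_two.symm] at h ⊢
  obtain h1 | h1 := k_half (x := x - 2 ^ n) (by linear_combination h.1) <;>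
    obtain h2 | h2 := k_half (x := y - 2 ^ n) (by linear_combination h.2)
  exacts [.inl (.inl ⟨by linear_combination h1, by linear_combination h2⟩),
    .inr (.inl ⟨by linear_combination h1, by linear_combination h2 + k_four⟩),
    .inr (.inr ⟨by linear_combination h1, by linear_combination h2⟩),
    .inl (.inr ⟨by linear_combination h1, by linear_combination h2⟩)]

theorem i1_sq : (i1 * i1 : Tw n) = tz := by simp [i1, tz, two_mul]

theorem i2_sq : (i2 * i2 : Tw n) = tz := by simpa using congrArg τ (i1_sq (n := n))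

theorem i1_i2 : (i1 * i2 : Tw n) = t1 := by simp [i1, i2, t1, two_mul]

theorem conj_i1 (s : Tw n) : s * i1 * s⁻¹ = i1 ∨ s * i1 * s⁻¹ = i1 * tz := by
  have : -(2 ^ n : Zn n) = 2 ^ n + 2 * 2 ^ n := by linear_combination -k_four
  rcases s with ⟨_, _, _ | _, _ | _⟩ <;> simp [i1, tz, ← this]

theorem conj_i2 (s : Tw n) : s * i2 * s⁻¹ = i2 ∨ s * i2 * s⁻¹ = i2 * tz :=
  (conj_i1 (τ s)).imp (fun h => by simpa using congrArg τ h) fun h => by simpa using congrArg τ h

theorem conj_t1 (s : Tw n) : s * t1 * s⁻¹ = if s.d then t1 * tz else t1 := by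
  have : (2 * 2 ^ n + 2 * 2 ^ n : Zn n) = 0 := by linear_combination k_four
  rcases s with ⟨_, _, _ | _, _ | _⟩ <;> simp [t1, tz, neg_k, this]

theorem ne_mul_z (s : Tw n) : s * tz ≠ s := by simpa using z_ne

theorem d_of_t1 {s : Tw n} (h : s * t1 = t1 * s) : s.d = false := by
  have := conj_t1 s
  rw [h, mul_inv_cancel_right] at this
  by_contra hd
  rw [if_pos (by simpa using hd)] at this
  exact ne_mul_z _ this.symm

theorem i1_ne : (i1 : Tw n) ≠ i2 ∧ (i1 : Tw n) ≠ i2 * tz := by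
  have := k_two (n := n)
  simp only [i1, i2, tz, mk_mul, ne_eq, Tw.mk.injEq]
  exact ⟨fun h => this (by linear_combination h.2.1), fun h => this (by simpa using h.1)⟩

theorem pow_mk (x y : Zn n) (k : ℕ) : (⟨x, y, false, false⟩ : Tw n) ^ k = ⟨k * x, k * y, false, false⟩ := by
  induction k with
  | zero => simp [one_def]
  | succ k ih => rw [pow_succ, ih]; simp [add_mul]

theorem mem_zp (x y r : Zn n) : ⟨r * x, r * y, false, false⟩ ∈ zpowers (⟨x, y, false, false⟩ : Tw n) := by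
  obtain ⟨k, rfl⟩ := ZMod.natCast_zmod_surjective r
  exact pow_mk x y k ▸ npow_mem_zpowers _ k

theorem Q_comm {s t : Tw n} (hs : s ∈ Q1) (ht : t ∈ Q2) : s * t = t * s := by
  rcases s with ⟨_, _, _ | _, _ | _⟩ <;> rcases t with ⟨_, _, _ | _, _ | _⟩ <;> simp [mem_Q1, mem_Q2] at hs ht ⊢
  exacts [⟨add_comm .., add_comm ..⟩, ⟨by linear_combination hs, by linear_combination -hs⟩,
    ⟨by linear_combination -ht, by linear_combination -ht⟩,
    ⟨by linear_combination hs - ht, by linear_combination -hs - ht - k_four⟩]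

theorem Q_inf {s : Tw n} (hs : s ∈ Q1) (ht : s ∈ Q2) : s = 1 ∨ s = tz := by
  rcases s with ⟨x, y, _ | _, _ | _⟩ <;> simp [mem_Q1, mem_Q2, one_def, tz] at hs ht ⊢
  obtain rfl := sub_eq_zero.1 hs
  simpa using k_half (by linear_combination ht)

theorem R_dec {s : Tw n} (hs : s ∈ Rs) : ∃ a ∈ Q1, ∃ b ∈ Q2, a * b = s := by
  obtain ⟨r, h⟩ := hs
  rcases s with ⟨x, y, _ | _, _ | _⟩ <;> simp at h
  · exact ⟨⟨r, r, false, false⟩, by simp [mem_Q1], ⟨x - r, r - x, false, false⟩, by simp [mem_Q2],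
      by simp; linear_combination -h⟩
  · exact ⟨⟨r - 2 ^ n, r - 2 ^ n, false, false⟩, by simp [mem_Q1], ⟨x - r + 2 ^ n, r - x + 2 ^ n, false, true⟩,
      by simp [mem_Q2]; ring, by simp; linear_combination -h⟩
  · exact ⟨⟨r + 2 * 2 ^ n, r, true, true⟩, by simp [mem_Q1], ⟨r - y, y - r + 2 * 2 ^ n, false, true⟩,
      by simp [mem_Q2]; ring, by simp; linear_combination -h⟩
  · exact ⟨⟨r + 2 ^ n, r - 2 ^ n, true, true⟩, by simp [mem_Q1]; ring, ⟨r - 2 ^ n - y, y - r + 2 ^ n, false, false⟩,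
      by simp [mem_Q2]; ring, by simp; linear_combination -h⟩

end Cfsg.Lib.G2.Tw
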